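import Cfsg.Agent.LV.W.Vec

/-!
# LV/W: the reflections of a union of components; packed linear identities (helper25)
-/

set_option autoImplicit false
set_option linter.unusedSectionVars false

namespace Cfsg.Agent.LV.W

open CoxeterSystem Cfsg.Agent.Tits.Exchange Cfsg.Agent.Tits.Core Cfsg.Agent.Tits.Roots
  Cfsg.Agent.ChevalleyStructure.CoxeterGeom Cfsg.Agent.LV.T Finset

/-- one Casimir element: letters, longest word, words of the reflections, levels -/
structure Cs where
  cm : List ℕ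
  om : List ℕ
  tl : List ℕ
  lev : List ℤ

/-- the word is reduced -/
def redOK (t : Ty) (l : List ℕ) : Bool :=
  List.rec true (fun a l' ih => Nat.blt 64 (dg (runL t.tab l' t.n0) a) && ih) l

def csOK (t : Ty) (c : Cs) : Bool :=
  c.cm.all (fun a => decide (a < t.r) && decide (t.σ a ∈ c.cm) && !Nat.blt 64 (dg (runL t.tab c.om t.n0) a)) &&
  c.om.all (fun a => decide (a ∈ c.cm)) &&
  allLt t.r (fun i => decide (i ∈ c.cm) ||
    c.cm.all fun j => Nat.beq (step t.tab i (step t.tab j t.n0)) (step t.tab j (step t.tab i t.n0))) &&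
  redOK t c.om && decide (c.tl.length = c.om.length) &&
  allLt c.om.length fun j =>
    Nat.beq (run t.tab (nth 1 c.tl j) (runL t.tab (c.om.take j) t.n0)) (runL t.tab (c.om.take (j + 1)) t.n0)

/-- the nodes of the Casimir element -/
def Cs.set {I : Type} (c : Cs) (em : ℕ → I) : Set I := {i | ∃ a ∈ c.cm, em a = i}

variable {I W : Type} [Fintype I] [DecidableEq I] [Group W] [Fintype W] {M : CoxeterMatrix I}
  {cs : CoxeterSystem M W} {A : I → I → ℤ} {h : IsCartan M A} {ψ : MulAut W} {t : Ty} {em : ℕ → I} {J : Set I} {w : W}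

theorem Fit.prod_mem (F : Fit cs h ψ t em J w) {l : List ℕ} (hl : ∀ a ∈ l, a < t.r) :
    cs.wordProd (l.map em) ∈ WJ cs J := wordProd_mem_WJ cs fun i hi => by
  obtain ⟨b, hb, rfl⟩ := List.mem_map.1 hi
  exact F.em_mem (hl b hb)

theorem Fit.runL_one (F : Fit cs h ψ t em J w) (ht : t.ok = true) {l : List ℕ} (hl : ∀ a ∈ l, a < t.r) :
    runL t.tab l t.n0 = cd cs h t em (cs.wordProd (l.map em)) := by
  rw [← cd_one (cs := cs) (h := h) (em := em) ht, F.runL_cd ht hl (one_mem _), mul_one]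

theorem Fit.run_one (F : Fit cs h ψ t em J w) (ht : t.ok = true) (n : ℕ) :
    run t.tab n t.n0 = cd cs h t em (wd cs em t.r n) := by
  rw [← cd_one (cs := cs) (h := h) (em := em) ht, F.run_cd ht n (one_mem _), mul_one]

theorem Fit.runs_one (F : Fit cs h ψ t em J w) (ht : t.ok = true) (n : ℕ) :
    run t.tbs n t.n0 = cd cs h t em (ws cs t em n) := by
  rw [← cd_one (cs := cs) (h := h) (em := em) ht, F.runs_cd ht n (one_mem _), mul_one]

theorem Fit.red (F : Fit cs h ψ t em J w) (ht : t.ok = true) {l : List ℕ} (hl : ∀ a ∈ l, a < t.r)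
    (hr : redOK t l = true) : cs.IsReduced (l.map em) := by
  induction l with
  | nil => simp [CoxeterSystem.IsReduced]
  | cons a l ih =>
    have h1 : ∀ b ∈ l, b < t.r := fun b hb => hl b (List.mem_cons_of_mem _ hb)
    have h2 : (Nat.blt 64 (dg (runL t.tab l t.n0) a) && redOK t l) = true := hr
    rw [Bool.and_eq_true, Nat.blt_eq, F.runL_one ht h1, F.up ht (F.prod_mem h1) (hl a List.mem_cons_self)] at h2
    have h3 : cs.length _ = _ := ih h1 h2.2
    have h4 := cs.length_wordProd_le ((a :: l).map em)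
    have h5 := h2.1
    rw [CoxeterSystem.IsReduced]
    rw [List.map_cons, cs.wordProd_cons] at h4 ⊢
    simp only [List.length_cons] at h4 ⊢
    omega

theorem Fit.cs_spec (F : Fit cs h ψ t em J w) (ht : t.ok = true) {c : Cs} (hc : csOK t c = true) :
    Node cs ψ J (c.set em) w ∧ ∀ {R : Type} [AddCommMonoid R] (g : W → R),
      ∑ x ∈ rf cs (c.set em), g x = (c.tl.map fun n => g (wd cs em t.r n)).sum := by
  simp only [csOK, Bool.and_eq_true, List.all_eq_true, decide_eq_true_eq, allLt_iff, Bool.or_eq_true, Nat.beq_eq,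
    Bool.not_eq_true', ← Bool.not_eq_true, Nat.blt_eq] at hc
  obtain ⟨⟨⟨⟨⟨h1, h2⟩, h3⟩, h4⟩, h5⟩, h6⟩ := hc
  have hom : ∀ a ∈ c.om, a < t.r := fun a ha => (h1 a (h2 a ha)).1.1
  have hK : ∀ i ∈ c.om.map em, i ∈ c.set em := fun i hi => by
    obtain ⟨a, ha, rfl⟩ := List.mem_map.1 hi
    exact ⟨a, h2 a ha, rfl⟩
  refine ⟨⟨?_, ?_, ?_⟩, fun g => ?_⟩
  · rintro _ ⟨a, ha, rfl⟩
    exact F.em_mem (h1 a ha).1.1
  · intro i hi
    obtain ⟨a, ha, rfl⟩ := (F.mem i).1 hi
    refine (h3 a ha).imp (fun h7 => ⟨a, h7, rfl⟩) ?_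
    rintro h7 _ ⟨b, hb, rfl⟩
    have h8 := h7 b hb
    have hb' := (h1 b hb).1.1
    have ma := simple_mem_WJ cs (F.em_mem ha)
    have mb := simple_mem_WJ cs (F.em_mem hb')
    rw [← cd_one (cs := cs) (h := h) (em := em) ht, F.step_simple ht hb' (one_mem _), F.step_simple ht ha (one_mem _),
      mul_one, mul_one, F.step_simple ht ha mb, F.step_simple ht hb' ma] at h8
    exact F.cd_inj ht (mul_mem ma mb) (mul_mem mb ma) h8
  · rintro _ ⟨a, ha, rfl⟩
    exact ⟨_, ⟨_, (h1 a ha).1.2, rfl⟩, F.tw a (h1 a ha).1.1⟩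
  · have e : cs.wordProd (c.om.map em) = wJ cs (c.set em) := by
      refine Cfsg.Agent.Tits.Generic.eq_wJ_of_descents cs (wordProd_mem_WJ cs hK) ?_
      rintro _ ⟨a, ha, rfl⟩
      have h7 := (h1 a ha).2
      rw [F.runL_one ht hom, F.up ht (F.prod_mem hom) (h1 a ha).1.1] at h7
      have h8 := cs.length_simple_mul_ne (cs.wordProd (c.om.map em)) (em a)
      omega
    rw [← sum_leftInvSeq (F.red ht hom h4) hK e]
    have e2 : cs.leftInvSeq (c.om.map em) = c.tl.map (wd cs em t.r) := by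
      refine List.ext_getElem (by rw [cs.length_leftInvSeq, List.length_map, List.length_map, h5]) fun j hj hj' => ?_
      have hj2 : j < c.om.length := by simpa using hj
      have h7 := h6 j hj2
      have t1 : ∀ m, ∀ a ∈ c.om.take m, a < t.r := fun m a ha => hom a (List.mem_of_mem_take ha)
      rw [F.runL_one ht (t1 _), F.runL_one ht (t1 _), F.run_cd ht _ (F.prod_mem (t1 _))] at h7
      have h8 := F.cd_inj ht (mul_mem (F.wd_mem _) (F.prod_mem (t1 _))) (F.prod_mem (t1 _)) h7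
      rw [List.take_succ_eq_append_getElem hj2, List.map_append, cs.wordProd_append, List.map_singleton,
        cs.wordProd_singleton, nth_eq, List.getD_eq_getElem _ _ (h5 ▸ hj2)] at h8
      rw [cs.getElem_leftInvSeq _ _ (by simpa using hj2), List.getElem_map, List.getElem_map, ← List.map_take,
        ← h8, mul_inv_cancel_right]
    rw [e2, List.map_map]
    rfl

theorem node_conj {K : Set I} (hK : Node cs ψ J K w) {v : W} (hv : v ∈ WJ cs J) (x : W) :
    x ∈ WJ cs K ↔ v * x * v⁻¹ ∈ WJ cs K := by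
  have key : ∀ v ∈ WJ cs J, ∀ x ∈ WJ cs K, v * x * v⁻¹ ∈ WJ cs K := by
    intro v hv
    refine WJ_ind (P := fun v => ∀ x ∈ WJ cs K, v * x * v⁻¹ ∈ WJ cs K) (fun x hx => by simpa using hx) ?_ hv
    intro i hi u _ ih x hx
    have h1 := ih x hx
    have e : cs.simple i * u * x * (cs.simple i * u)⁻¹ = cs.simple i * (u * x * u⁻¹) * (cs.simple i)⁻¹ := by group
    rw [e]
    rcases hK.comp i hi with h2 | h2
    · exact mul_mem (mul_mem (simple_mem_WJ cs h2) h1) (inv_mem (simple_mem_WJ cs h2))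
    · have h3 : cs.simple i * (u * x * u⁻¹) = (u * x * u⁻¹) * cs.simple i :=
        WJ_ind (P := fun z => cs.simple i * z = z * cs.simple i) (by simp)
          (fun j hj z _ hz => by rw [← mul_assoc, h2 j hj, mul_assoc, hz, mul_assoc]) h1
      rwa [h3, mul_inv_cancel_right]
  refine ⟨key v hv x, fun h1 => ?_⟩
  have h2 := key _ (inv_mem hv) _ h1
  rwa [show v⁻¹ * (v * x * v⁻¹) * v⁻¹⁻¹ = x by group] at h2

theorem Inv.aeval {K : Set I} (hK : Node cs ψ J K w) {y : W → ℂ} (hy : Inv cs ψ J y) (P : Polynomial ℂ) :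
    Inv cs ψ J (Polynomial.aeval (cas cs K) P y) := by
  intro g hg u
  have h1 := aeval_cas_conj (node_conj hK hg) (ψ g)⁻¹ (y := y) (fun u => by
    rw [mul_assoc, hy g hg, inv_mul_cancel_right]) P (u * ψ g)
  rwa [mul_assoc, mul_inv_cancel_right] at h1

theorem Inv.cas {K : Set I} (hK : Node cs ψ J K w) {y : W → ℂ} (hy : Inv cs ψ J y) : Inv cs ψ J (cas cs K y) := by
  simpa using hy.aeval hK Polynomial.X

theorem sum_cas {K : Set I} (hK : K ⊆ J) [Fintype (WJ cs J)] (y : W → ℂ) :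
    ∑ x : WJ cs J, cas cs K y (x * w) = (rf cs K).card * ∑ x : WJ cs J, y (x * w) := by
  simp only [cas_apply]
  rw [sum_comm, ← nsmul_eq_mul, ← sum_const]
  refine sum_congr rfl fun s hs => ?_
  exact Fintype.sum_equiv (Equiv.mulLeft (⟨s, WJ_mono cs hK (mem_rf.1 hs).2⟩ : WJ cs J)) _ _ fun x => by
    simp [mul_assoc]

/-! ### packing -/

def pkz (B : ℤ) (l : List ℤ) : ℤ := List.rec 0 (fun a _ ih => a + B * ih) l

def sumAbs (l : List ℤ) : ℕ := List.rec 0 (fun a _ ih => Nat.add a.natAbs ih) l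

/-- sparse linear combination -/
def dotP (ps : List (ℤ × ℕ)) (f : ℕ → ℤ) : ℤ := List.rec 0 (fun p _ ih => p.1 * f p.2 + ih) ps

theorem dotP_eq (ps : List (ℤ × ℕ)) (f : ℕ → ℤ) : dotP ps f = (ps.map fun p => p.1 * f p.2).sum := by
  induction ps with
  | nil => rfl
  | cons p ps ih => rw [List.map_cons, List.sum_cons, ← ih]; rfl

theorem pkz_eq (B : ℤ) {l : List ℤ} {n : ℕ} (hn : l.length ≤ n) : pkz B l = ∑ i ∈ range n, nth 0 l i * B ^ i := by
  induction l generalizing n with
  | nil => simp [pkz, nth_nil]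
  | cons a l ih =>
    cases n with
    | zero => simp at hn
    | succ n =>
      rw [sum_range_succ', nth_zero, pow_zero, mul_one, add_comm]
      show a + B * pkz B l = _
      rw [ih (Nat.le_of_succ_le_succ hn), mul_sum]
      exact congrArg _ (sum_congr rfl fun i _ => by rw [nth_succ]; ring)

theorem abs_nth_le (l : List ℤ) (i : ℕ) : |nth 0 l i| ≤ sumAbs l := by
  induction l generalizing i with
  | nil => simp [nth_nil]
  | cons a l ih =>
    have e : (sumAbs (a :: l) : ℤ) = |a| + sumAbs l := by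
      show ((a.natAbs + sumAbs l : ℕ) : ℤ) = _
      push_cast; rfl
    rw [e]
    cases i with
    | zero => rw [nth_zero]; omega
    | succ i => rw [nth_succ]; have := ih i; have := abs_nonneg a; omega

theorem pack_inj {B : ℤ} {n : ℕ} {d : ℕ → ℤ} (hd : ∀ i < n, |d i| < B) (e : ∑ i ∈ range n, d i * B ^ i = 0) :
    ∀ i < n, d i = 0 := by
  induction n generalizing d with
  | zero => exact fun i hi => absurd hi (Nat.not_lt_zero i)
  | succ n ih =>
    have h0 := hd 0 (Nat.succ_pos n)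
    have hB : B ≠ 0 := (lt_of_le_of_lt (abs_nonneg _) h0).ne'
    have e1 : B * ∑ i ∈ range n, d (i + 1) * B ^ i + d 0 = 0 := by
      rw [← e, sum_range_succ', pow_zero, mul_one, mul_sum]
      exact congrArg (· + d 0) (sum_congr rfl fun i _ => by ring)
    have h1 : d 0 = 0 := Int.eq_zero_of_abs_lt_dvd ⟨-∑ i ∈ range n, d (i + 1) * B ^ i, by linarith⟩ h0
    rw [h1, add_zero, mul_eq_zero] at e1
    have h2 := ih (d := fun i => d (i + 1)) (fun i hi => hd _ (Nat.succ_lt_succ hi)) (e1.resolve_left hB)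
    intro i hi
    cases i with
    | zero => exact h1
    | succ i => exact h2 i (Nat.lt_of_succ_lt_succ hi)

/-- `∑ p.1 * column p.2 = l` -/
def linP (K b : ℕ) (B : ℤ) (XP : List ℤ) (ps : List (ℤ × ℕ)) (l : List ℤ) : Bool :=
  ps.all (fun p => Nat.blt p.2 K) && Nat.ble l.length K &&
    decide (((sumAbs (ps.map fun p => p.1) * b + sumAbs l : ℕ) : ℤ) < B) && decide (dotP ps (nth 0 XP) = pkz B l)

theorem linP_spec {K b : ℕ} {B : ℤ} {XC : List (List ℤ)} (hK : XC.length = K)
    (hX : ∀ c ∈ XC, c.length ≤ K ∧ ∀ x ∈ c, x.natAbs ≤ b) {ps : List (ℤ × ℕ)} {l : List ℤ}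
    (hl : linP K b B (XC.map (pkz B)) ps l = true) :
    (∀ p ∈ ps, p.2 < K) ∧ ∀ φ < K, (ps.map fun p => p.1 * ga XC p.2 φ).sum = nth 0 l φ := by
  simp only [linP, Bool.and_eq_true, List.all_eq_true, decide_eq_true_eq, Nat.blt_eq, Nat.ble_eq, dotP_eq] at hl
  obtain ⟨⟨⟨h1, h2⟩, h3⟩, h4⟩ := hl
  have hc : ∀ k < K, nth [] XC k ∈ XC := fun k hk => by
    rw [nth_eq, List.getD_eq_getElem _ _ (hK ▸ hk)]; exact List.getElem_mem _
  have hb : ∀ k < K, ∀ φ, |ga XC k φ| ≤ b := fun k hk φ => by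
    rw [ga, nth_eq, List.getD_eq_getElem?_getD]
    cases e : (nth [] XC k)[φ]? with
    | none => simp
    | some x =>
      have := (hX _ (hc k hk)).2 x (List.mem_of_getElem? e)
      rw [Option.getD_some, Int.abs_eq_natAbs]; exact_mod_cast this
  have hp : ∀ k < K, nth 0 (XC.map (pkz B)) k = ∑ φ ∈ range K, ga XC k φ * B ^ φ := fun k hk => by
    rw [nth_eq, List.getD_eq_getElem _ _ (by rw [List.length_map, hK]; exact hk), List.getElem_map,
      pkz_eq B (hX _ (List.getElem_mem _)).1]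
    simp only [ga, nth_eq [] XC k, List.getD_eq_getElem _ _ (hK ▸ hk)]
  have key : ∀ qs : List (ℤ × ℕ), (∀ p ∈ qs, p.2 < K) →
      (qs.map fun p => p.1 * nth 0 (XC.map (pkz B)) p.2).sum =
        ∑ φ ∈ range K, (qs.map fun p => p.1 * ga XC p.2 φ).sum * B ^ φ ∧
      ∀ φ, |(qs.map fun p => p.1 * ga XC p.2 φ).sum| ≤ sumAbs (qs.map fun p => p.1) * b := by
    intro qs hq
    induction qs with
    | nil => simp [sumAbs]
    | cons p qs ih =>
      obtain ⟨i1, i2⟩ := ih fun q hq' => hq q (List.mem_cons_of_mem _ hq')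
      have hp2 := hq p List.mem_cons_self
      simp only [List.map_cons, List.sum_cons]
      refine ⟨?_, fun φ => ?_⟩
      · rw [i1, hp _ hp2, mul_sum, ← sum_add_distrib]
        exact sum_congr rfl fun φ _ => by ring
      · have e : (sumAbs (p.1 :: qs.map fun p => p.1) : ℤ) = |p.1| + sumAbs (qs.map fun p => p.1) := by
          show ((p.1.natAbs + sumAbs _ : ℕ) : ℤ) = _
          push_cast; rfl
        rw [e, add_mul]
        refine le_trans (abs_add_le _ _) (add_le_add ?_ (i2 φ))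
        rw [abs_mul]
        exact mul_le_mul_of_nonneg_left (hb _ hp2 φ) (abs_nonneg _)
  refine ⟨h1, fun φ hφ => sub_eq_zero.1 (pack_inj (B := B) (n := K)
    (d := fun φ => (ps.map fun p => p.1 * ga XC p.2 φ).sum - nth 0 l φ) (fun i _ => ?_) ?_ φ hφ)⟩
  · have a1 := (key ps h1).2 i
    have a2 := abs_nth_le l i
    have a3 := abs_sub (ps.map fun p => p.1 * ga XC p.2 i).sum (nth 0 l i)
    push_cast at h3
    linarith
  · simp only [sub_mul, sum_sub_distrib]
    rw [← (key ps h1).1, h4, pkz_eq B h2, sub_self]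

end Cfsg.Agent.LV.W
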