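import Cfsg.Agent.LV.W.Form

/-!
# LV/W: nodes with lattices; every proper coset `W_K w` fits a node of a list (helper25)
-/

set_option autoImplicit false
set_option linter.unusedSectionVars false

namespace Cfsg.Agent.LV.W

open CoxeterSystem Cfsg.Agent.Tits.Exchange Cfsg.Agent.Tits.Core Cfsg.Agent.Tits.Roots
  Cfsg.Agent.ChevalleyStructure.CoxeterGeom Cfsg.Agent.LV.T Finset

/-- a node with a basis of its level lattice and the inverse of the basis -/
structure Lat where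
  nd : Nd
  bas : List (List ℤ × ℤ)
  inv : List (ℤ × List (ℤ × ℕ))

structure Lat.Ok (L : Lat) : Prop where
  good : L.nd.Good
  fx : FX L.nd L.bas
  io : invOK L.nd L.bas L.inv = true

/-- the coordinate `φ` of the dual vector with the lattice coordinates `z` -/
def Lat.a (L : Lat) (z : ℕ → ℤ) (φ : ℕ) : ℚ := coz L.bas L.inv z φ

/-- the value at the class `k` -/
def Lat.val (L : Lat) (z : ℕ → ℤ) (k : ℕ) : ℚ := ∑ φ ∈ range L.nd.K, L.a z φ * L.nd.X φ k

/-- the norm -/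
def Lat.nrm (L : Lat) (z : ℕ → ℤ) : ℚ := (∑ φ ∈ range L.nd.K, L.nd.ν φ * L.a z φ ^ 2) / L.nd.ν 0

variable {I W : Type} [Fintype I] [DecidableEq I] [Group W] [Fintype W] {M : CoxeterMatrix I}
  {cs : CoxeterSystem M W} {A : I → I → ℤ} {h : IsCartan M A} {ψ : MulAut W} {em : ℕ → I} {J : Set I} {w : W}

/-- **the output** -/
theorem Lat.Ok.out {L : Lat} (H : L.Ok) (F : Fit cs h ψ L.nd.toTy em J w) [Fintype (WJ cs J)] {y : W → ℂ}
    (hl : Lv cs ψ J w y) (hy : Inv cs ψ J y) : ∃ z : ℕ → ℤ, (∀ k < L.nd.K, y (el cs L.nd em w k) = (L.val z k : ℚ)) ∧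
      ∑ x : WJ cs J, ‖y (x * w)‖ ^ 2 = Nat.card (WJ cs J) * ((L.nrm z : ℚ) : ℝ) := by
  obtain ⟨z, hz⟩ := FX.out H.good H.fx H.io F hl hy
  refine ⟨z, fun k hk => ?_, Rp.norm F H.good hy hz⟩
  rw [hz k hk, Lat.val]
  push_cast; rfl

theorem all_ok_nil : ∀ L ∈ ([] : List Lat), L.Ok := fun _ h => absurd h List.not_mem_nil

theorem all_ok_cons {L : Lat} {Ls : List Lat} (h : L.Ok) (h' : ∀ L ∈ Ls, L.Ok) : ∀ L' ∈ L :: Ls, L'.Ok :=
  List.forall_mem_cons.2 ⟨h, h'⟩

/-- the whole group -/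
theorem Fit.top {t : Ty} (car : ∀ i < t.r, ∀ j < t.r, A (em i) (em j) = ga t.AL i j) (sur : ∀ i, ∃ a < t.r, em a = i)
    (hψ : ∀ a < t.r, ψ (cs.simple (em a)) = cs.simple (em (t.σ a))) : Fit cs h ψ t em Set.univ 1 where
  car := car
  mem i := ⟨fun _ => sur i, fun _ => trivial⟩
  aut i := by
    obtain ⟨a, ha, rfl⟩ := sur i
    exact ⟨_, hψ a ha⟩
  min := min_one
  tw a ha := by rw [hψ a ha, one_mul, mul_one]

def entOK (AL : List (List ℤ)) (t' : Ty) (Kl : List ℕ) (acc : List (ℕ × ℕ)) (io : List ℕ) : Bool :=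
  decide (io.length = t'.r) && (Kl.all fun a => decide (a ∈ io)) &&
  allLt t'.r fun i => decide (nth 0 io i ∈ Kl) && decide ((nth 0 io i, nth 0 io (t'.σ i)) ∈ acc) &&
    allLt t'.r fun j => decide (ga AL (nth 0 io i) (nth 0 io j) = ga t'.AL i j)

def goD (AL : List (List ℤ)) (Ls : List Lat) (Kl : List ℕ) (ents : List (ℕ × List ℕ)) (todo : List ℕ) :
    List (ℕ × ℕ) → Bool :=
  List.rec (fun acc => ents.any fun e => List.casesOn (Ls.drop e.1) false fun L _ => entOK AL L.nd.toTy Kl acc e.2)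
    (fun i _ ih acc => Kl.all fun j =>
      !(acc.all fun p => decide (ga AL j p.2 = ga AL i p.1) && decide (ga AL p.2 j = ga AL p.1 i)) ||
        ih ((i, j) :: acc)) todo

def allSub (l : List ℕ) : (List ℕ → Bool) → Bool :=
  List.rec (fun f => f []) (fun a _ ih f => ih f && ih fun s => f (a :: s)) l

theorem allSub_spec {l : List ℕ} {f : List ℕ → Bool} (h : allSub l f = true) (p : ℕ → Bool) : f (l.filter p) = true := by
  induction l generalizing f with
  | nil => exact h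
  | cons a l ih =>
    have h1 : (allSub l f && allSub l fun s => f (a :: s)) = true := h
    rw [Bool.and_eq_true] at h1
    rw [List.filter_cons]
    split_ifs
    exacts [ih h1.2, ih h1.1]

def keyL (l : List ℕ) : ℕ := List.rec 0 (fun a _ ih => Nat.add (Nat.shiftLeft 1 a) ih) l

def dispOK (r : ℕ) (AL : List (List ℤ)) (Ls : List Lat) (tbl : List (List (ℕ × List ℕ))) : Bool :=
  allSub (List.range r) fun Kl => Nat.beq Kl.length r || goD AL Ls Kl (nth [] tbl (keyL Kl)) Kl []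

theorem goD_spec {AL : List (List ℤ)} {Ls : List Lat} {Kl : List ℕ} {ents : List (ℕ × List ℕ)} (τ : ℕ → ℕ)
    (h1 : ∀ a ∈ Kl, τ a ∈ Kl) (h2 : ∀ a ∈ Kl, ∀ b ∈ Kl, ga AL (τ a) (τ b) = ga AL a b) {todo : List ℕ}
    (ht : ∀ a ∈ todo, a ∈ Kl) {acc : List (ℕ × ℕ)} (ha : ∀ p ∈ acc, p.1 ∈ Kl ∧ p.2 = τ p.1)
    (h : goD AL Ls Kl ents todo acc = true) : ∃ L ∈ Ls, ∃ io acc', (∀ p ∈ acc', p.2 = τ p.1) ∧
      entOK AL L.nd.toTy Kl acc' io = true := by
  induction todo generalizing acc with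
  | nil =>
    obtain ⟨e, -, he⟩ := List.any_eq_true.1 h
    cases e1 : Ls.drop e.1 with
    | nil => rw [e1] at he; exact absurd he Bool.false_ne_true
    | cons L tl =>
      rw [e1] at he
      exact ⟨L, List.mem_of_mem_drop (e1 ▸ List.mem_cons_self), e.2, acc, fun p hp => (ha p hp).2, he⟩
  | cons i todo ih =>
    have hi := ht i List.mem_cons_self
    have h3 := List.all_eq_true.1 h (τ i) (h1 i hi)
    rw [Bool.or_eq_true] at h3
    rcases h3 with h3 | h3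
    · refine absurd h3 ?_
      rw [Bool.not_eq_true', Bool.not_eq_false, List.all_eq_true]
      intro p hp
      rw [(ha p hp).2, h2 i hi _ (ha p hp).1, h2 _ (ha p hp).1 i hi]
      simp
    · refine ih (fun a h4 => ht a (List.mem_cons_of_mem _ h4)) (fun p hp => ?_) h3
      rcases List.mem_cons.1 hp with rfl | h4
      exacts [⟨hi, rfl⟩, ha p h4]

/-- **every proper coset fits a node of the list** -/
theorem dispatch {r : ℕ} {AL : List (List ℤ)} {Ls : List Lat} {tbl : List (List (ℕ × List ℕ))}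
    (hc : dispOK r AL Ls tbl = true) (car : ∀ i < r, ∀ j < r, A (em i) (em j) = ga AL i j)
    (sur : ∀ i, ∃ a < r, em a = i) (hψ : Aut cs ψ) {K : Set I} (hK : K ≠ Set.univ) (hm : Min cs K w) (τ : I → I)
    (hτ : ∀ i ∈ K, τ i ∈ K ∧ w * ψ (cs.simple i) = cs.simple (τ i) * w ∧ ∀ i' ∈ K, A (τ i) (τ i') = A i i') :
    ∃ L ∈ Ls, ∃ io : List ℕ, (∀ a ∈ io, a < r) ∧ io.length = L.nd.r ∧
      Fit cs h ψ L.nd.toTy (fun i => em (nth 0 io i)) K w := by
  classical
  choose ix hx1 hx2 using sur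
  have hm1 : ∀ a, a ∈ (List.range r).filter (fun a => decide (em a ∈ K)) ↔ a < r ∧ em a ∈ K := fun a => by
    simp [List.mem_filter]
  have h1 := allSub_spec hc fun a => decide (em a ∈ K)
  generalize hKl : (List.range r).filter (fun a => decide (em a ∈ K)) = Kl at h1 hm1
  rw [Bool.or_eq_true, Nat.beq_eq] at h1
  rcases h1 with h1 | h1
  · refine absurd (Set.eq_univ_of_forall fun i => ?_) hK
    have h2 : (List.range r).filter (fun a => decide (em a ∈ K)) = List.range r :=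
      List.filter_sublist.eq_of_length (by rw [hKl, h1, List.length_range])
    have h3 := (hm1 (ix i)).1 (by rw [← hKl, h2]; exact List.mem_range.2 (hx1 i))
    exact hx2 i ▸ h3.2
  obtain ⟨L, hL, io, acc, h2, h3⟩ := goD_spec (fun a => ix (τ (em a)))
    (fun a ha => (hm1 _).2 ⟨hx1 _, by rw [hx2]; exact (hτ _ ((hm1 a).1 ha).2).1⟩)
    (fun a ha b hb => by
      rw [← car _ (hx1 _) _ (hx1 _), hx2, hx2, (hτ _ ((hm1 a).1 ha).2).2.2 _ ((hm1 b).1 hb).2,
        car _ ((hm1 a).1 ha).1 _ ((hm1 b).1 hb).1])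
    (fun _ ha => ha) (fun p hp => absurd hp List.not_mem_nil) h1
  simp only [entOK, Bool.and_eq_true, decide_eq_true_eq, List.all_eq_true, allLt_iff] at h3
  obtain ⟨⟨h3, h4⟩, h5⟩ := h3
  have h6 : ∀ a ∈ io, ∃ i < L.nd.r, nth 0 io i = a := fun a ha => by
    obtain ⟨i, hi, rfl⟩ := List.getElem_of_mem ha
    exact ⟨i, h3 ▸ hi, by rw [nth_eq, List.getD_eq_getElem _ _ hi]⟩
  refine ⟨L, hL, io, fun a ha => ?_, h3, fun i hi j hj => ?_, fun i => ⟨fun hi => ?_, ?_⟩, hψ, hm, fun i hi => ?_⟩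
  · obtain ⟨i, hi, rfl⟩ := h6 a ha
    exact ((hm1 _).1 (h5 i hi).1.1).1
  · rw [car _ ((hm1 _).1 (h5 i hi).1.1).1 _ ((hm1 _).1 (h5 j hj).1.1).1, (h5 i hi).2 j hj]
  · obtain ⟨a, ha, e⟩ := h6 _ (h4 _ ((hm1 (ix i)).2 ⟨hx1 i, by rw [hx2]; exact hi⟩))
    exact ⟨a, ha, by rw [e, hx2]⟩
  · rintro ⟨a, ha, rfl⟩
    exact ((hm1 _).1 (h5 a ha).1.1).2
  · have h7 : nth 0 io (L.nd.σ i) = ix (τ (em (nth 0 io i))) := h2 _ (h5 i hi).1.2
    rw [h7, hx2]
    exact (hτ _ ((hm1 _).1 (h5 i hi).1.1).2).2.1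

end Cfsg.Agent.LV.W
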