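import Cfsg.Agent.LV.W.Disp
import Cfsg.Agent.LV.Enum.Main

/-!
# LV/W: block-wise enumeration of the short dual vectors (helper25)

`Lat.enum_sound` : if `L.enum c fs B P = true` and `c.S * L.nrm z ≤ B`, then `P rem vals = true` for
`rem = B - c.S * L.nrm z` and `vals = c.N * (∑ φ, t φ * L.a z φ)`, `t ∈ fs`.
-/

set_option autoImplicit false

namespace Cfsg.Agent.LV.W

open Finset Cfsg.Agent.LV.Enum

/-- the search tree; the leaves see the remaining bound -/
def dfs2 (P : ℤ → List ℤ → Bool) (R : List (ℤ × ℤ × List ℤ)) : ℤ → List ℤ → Bool :=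
  List.rec (fun B x => P B x) (fun r _ ih B x =>
    fi (dot r.2.2 x) fun s => fi (Int.neg (Int.ediv s r.2.1)) fun z => fi (Int.emod s r.2.1) fun v =>
      scan (fun y B' => ih B' (y :: x)) 1 r.1 r.2.1 B 100000 z v &&
      fi (Int.sub z 1) fun z' => fi (Int.sub r.2.1 v) fun v' =>
        scan (fun y B' => ih B' (y :: x)) (-1) r.1 r.2.1 B 100000 z' v') R

theorem dfs2_cons (P : ℤ → List ℤ → Bool) (r : ℤ × ℤ × List ℤ) (R : List (ℤ × ℤ × List ℤ)) (B : ℤ) (x : List ℤ) :
    dfs2 P (r :: R) B x =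
    fi (dot r.2.2 x) fun s => fi (Int.neg (Int.ediv s r.2.1)) fun z => fi (Int.emod s r.2.1) fun v =>
      scan (fun y B' => dfs2 P R B' (y :: x)) 1 r.1 r.2.1 B 100000 z v &&
      fi (Int.sub z 1) fun z' => fi (Int.sub r.2.1 v) fun v' =>
        scan (fun y B' => dfs2 P R B' (y :: x)) (-1) r.1 r.2.1 B 100000 z' v' := rfl

theorem dfs2_sound {P : ℤ → List ℤ → Bool} : ∀ (R : List (ℤ × ℤ × List ℤ)) (B : ℤ) (x y : List ℤ),
    (∀ r ∈ R, 0 ≤ r.1 ∧ 0 < r.2.1) → dfs2 P R B x = true → y.length = R.length → Q (dense R) (y ++ x) ≤ B →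
    P (B - Q (dense R) (y ++ x)) (y ++ x) = true
  | [], _, _, y, _, h, hy, _ => by
    rw [List.length_eq_zero_iff.1 hy, show Q (dense []) _ = 0 from rfl, sub_zero]
    exact h
  | r :: R, B, x, y, hR, h, hy, hB => by
    obtain ⟨y, a, rfl⟩ : ∃ y' a, y = y' ++ [a] := by
      rcases List.eq_nil_or_concat y with rfl | ⟨y', a, rfl⟩
      · exact nomatch hy
      · exact ⟨y', a, List.concat_eq_append⟩
    have h1 : y.length = R.length := by simpa using hy
    have h2 := hR r (.head _)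
    have h3 : ∀ s ∈ R, 0 ≤ s.1 ∧ 0 < s.2.1 := fun s hs => hR s (.tail _ hs)
    rw [List.append_assoc, List.singleton_append] at hB ⊢
    rw [dense, Q_cons, dot_eq, ← h1, dt_zero, dt_cons, ← dot_eq, Int.cast_id] at hB ⊢
    have h4 := Q_dense_nonneg (y ++ a :: x) R h3
    simp only [dfs2_cons, fi_eq, Bool.and_eq_true] at h
    generalize dot r.2.2 x = s at h hB ⊢
    have h5 : r.2.1 * (s / r.2.1) + s % r.2.1 = s := Int.mul_ediv_add_emod s _
    rw [← sub_sub]
    refine dfs2_sound R (B - r.1 * (r.2.1 * a + s) ^ 2) _ y h3 ?_ h1 (by linarith)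
    rcases le_or_gt (-(s / r.2.1)) a with h6 | h6
    · obtain ⟨j, hj⟩ := Int.eq_ofNat_of_zero_le (sub_nonneg.2 h6)
      have h7 := scan_sound h2.1 h2.2.le _ _ _ (Int.emod_nonneg s h2.2.ne') h.1 j
      rw [show s % r.2.1 + j * r.2.1 = r.2.1 * a + s by rw [← hj]; linear_combination h5,
        show (s.ediv r.2.1).neg + j * 1 = a by rw [← hj]; show -(s / r.2.1) + _ = _; ring] at h7
      exact h7 (by linarith)
    · obtain ⟨j, hj⟩ := Int.eq_ofNat_of_zero_le (show 0 ≤ -(s / r.2.1) - 1 - a by omega)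
      have h7 := scan_sound h2.1 h2.2.le _ _ _ (sub_nonneg.2 (Int.emod_lt_of_pos s h2.2).le) h.2 j
      rw [show r.2.1 - s % r.2.1 + j * r.2.1 = -(r.2.1 * a + s) by rw [← hj]; linear_combination -h5, neg_sq,
        show ((s.ediv r.2.1).neg.sub 1) + j * -1 = a by rw [← hj]; show -(s / r.2.1) - 1 + _ = _; ring] at h7
      exact h7 (by linarith)

/-- a prepared block: triangular forms, coefficients of the functionals -/
abbrev PB : Type := List (ℤ × ℤ × List ℤ) × List (List ℤ)

def accum (acc : List ℤ) (U : List (List ℤ)) (x : List ℤ) : List ℤ :=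
  cond (x.all fun a => decide (a = 0)) acc (List.zipWith (fun a u => Int.add a (dot u x)) acc U)

def goB (P : ℤ → List ℤ → Bool) (bs : List PB) : ℤ → List ℤ → Bool :=
  List.rec (fun B acc => P B acc) (fun b _ ih B acc => dfs2 (fun B' x => ih B' (accum acc b.2 x)) b.1 B []) bs

theorem dot_zero {x : List ℤ} (h : ∀ a ∈ x, a = 0) (u : List ℤ) : dot u x = 0 := by
  induction u generalizing x with
  | nil => cases x <;> rfl
  | cons c u ih =>
    cases x with
    | nil => rfl
    | cons a x =>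
      show c * a + dot u x = 0
      rw [h a List.mem_cons_self, ih fun b hb => h b (List.mem_cons_of_mem _ hb), mul_zero, add_zero]

theorem accum_map {ι : Type} (fs : List ι) (f : ι → ℤ) (u : ι → List ℤ) (x : List ℤ) :
    accum (fs.map f) (fs.map u) x = fs.map fun t => f t + dot (u t) x := by
  rw [accum]
  cases e : x.all fun a => decide (a = 0)
  · rw [cond_false, List.zipWith_map, List.zipWith_self]; rfl
  · rw [cond_true]
    simp only [List.all_eq_true, decide_eq_true_eq] at e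
    simp only [dot_zero e, add_zero]

theorem goB_sound {ι κ : Type} {P : ℤ → List ℤ → Bool} (fs : List ι) (R : κ → List (ℤ × ℤ × List ℤ))
    (u : κ → ι → List ℤ) (y : κ → List ℤ) (bs : List κ) (hR : ∀ b ∈ bs, (∀ r ∈ R b, 0 ≤ r.1 ∧ 0 < r.2.1) ∧
      (y b).length = (R b).length) (B : ℤ) (f : ι → ℤ)
    (h : goB P (bs.map fun b => (R b, fs.map (u b))) B (fs.map f) = true)
    (hB : (bs.map fun b => Q (dense (R b)) (y b)).sum ≤ B) :
    P (B - (bs.map fun b => Q (dense (R b)) (y b)).sum)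
      (fs.map fun t => f t + (bs.map fun b => dot (u b t) (y b)).sum) = true := by
  induction bs generalizing B f with
  | nil =>
    simp only [List.map_nil, List.sum_nil, sub_zero, add_zero]
    exact h
  | cons b bs ih =>
    have h1 : ∀ c ∈ bs, _ := fun c hc => hR c (List.mem_cons_of_mem _ hc)
    have h2 := hR b List.mem_cons_self
    have h3 : 0 ≤ (bs.map fun b => Q (dense (R b)) (y b)).sum := List.sum_nonneg fun a ha => by
      obtain ⟨c, hc, rfl⟩ := List.mem_map.1 ha
      exact Q_dense_nonneg _ _ (h1 c hc).1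
    simp only [List.map_cons, List.sum_cons] at hB ⊢
    have h4 := dfs2_sound (R b) B [] (y b) h2.1 h h2.2 (by rw [List.append_nil]; linarith)
    rw [List.append_nil, accum_map] at h4
    have h5 := ih h1 _ _ h4 (by linarith)
    simpa only [sub_sub, add_assoc] using h5

/-- a block: characters, lattice coordinates, triangular forms -/
structure Blk where
  ph : List ℕ
  js : List ℕ
  R : List (ℤ × ℤ × List ℤ)

/-- certificate of the enumeration -/
structure Ce where
  N : ℤ
  S : ℤ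
  bl : List Blk

namespace Lat

variable (L : Lat) (c : Ce)

def num (φ j : ℕ) : ℤ :=
  c.N * List.rec 0 (fun p _ ih => (if p.2 = j then p.1 * (nth ([], 0) L.bas p.2).2 else 0) + ih) (nth (0, []) L.inv φ).2

/-- `N * a φ` as a form in the lattice coordinates of the block -/
def row (b : Blk) (φ : ℕ) : List ℤ := b.js.map fun j => L.num c φ j / (nth (0, []) L.inv φ).1

def wt (φ : ℕ) : ℤ := c.S * L.nd.ν φ / (L.nd.ν 0 * c.N ^ 2)

def blkOK (b : Blk) : Bool :=
  decide (b.js.Nodup) && decide (b.R.length = b.js.length) && (b.R.all fun r => decide (0 ≤ r.1) && decide (0 < r.2.1)) &&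
  (b.ph.all fun φ => decide ((nth (0, []) L.inv φ).1 ≠ 0) && ((nth (0, []) L.inv φ).2.all fun p => decide (p.2 ∈ b.js)) &&
    (b.js.all fun j => decide (L.num c φ j % (nth (0, []) L.inv φ).1 = 0)) &&
    decide (L.wt c φ * (L.nd.ν 0 * c.N ^ 2) = c.S * L.nd.ν φ)) &&
  decide (gram (dense b.R) = gram (b.ph.map fun φ => (L.wt c φ, L.row c b φ)))

def ceOK : Bool :=
  decide (c.N ≠ 0) && decide (L.nd.ν 0 ≠ 0) && decide ((c.bl.flatMap Blk.ph).Perm (List.range L.nd.K)) &&
    c.bl.all (L.blkOK c)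

def uu (b : Blk) (t : List ℤ) : List ℤ := comb (b.ph.map (nth 0 t)) (b.ph.map (L.row c b))

def fR {α : Type} : List (ℤ × ℤ × List ℤ) → (List (ℤ × ℤ × List ℤ) → α) → α :=
  fl fun r k => fi r.1 fun e => fi r.2.1 fun g => fl fi r.2.2 fun l => k (e, g, l)

/-- **the enumeration** -/
def enum (fs : List (List ℤ)) (B : ℤ) (P : ℤ → List ℤ → Bool) : Bool :=
  fl (fun (b : PB) k => fR b.1 fun R => fm b.2 fun U => k (R, U)) (c.bl.map fun b => (b.R, fs.map (L.uu c b))) fun bs =>
    fi B fun B => goB P bs B (fs.map fun _ => 0)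

variable {L c}

theorem row_spec {b : Blk} (h : L.blkOK c b = true) {φ : ℕ} (hφ : φ ∈ b.ph) (z : ℕ → ℤ) :
    ((dot (L.row c b φ) (b.js.map z) : ℤ) : ℚ) = c.N * L.a z φ := by
  simp only [blkOK, Bool.and_eq_true, decide_eq_true_eq, List.all_eq_true] at h
  obtain ⟨⟨⟨h1, h2⟩, h3⟩, -⟩ := h.1.2 φ hφ
  have hn := h.1.1.1.1
  have key : ∀ js : List ℕ, (∀ j ∈ js, j ∈ b.js) →
      (nth (0, []) L.inv φ).1 * dot (js.map fun j => L.num c φ j / (nth (0, []) L.inv φ).1) (js.map z) =
        (js.map fun j => L.num c φ j * z j).sum := by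
    intro js hj
    induction js with
    | nil => exact mul_zero _
    | cons j js ih =>
      show _ * (L.num c φ j / (nth (0, []) L.inv φ).1 * z j + _) = _
      rw [mul_add, ih fun i hi => hj i (List.mem_cons_of_mem _ hi), ← mul_assoc,
        Int.mul_ediv_cancel' (Int.dvd_of_emod_eq_zero (h3 j (hj j List.mem_cons_self)))]
      rfl
  have key2 : ∀ cf : List (ℤ × ℕ), (∀ p ∈ cf, p.2 ∈ b.js) →
      (b.js.map fun j => (List.rec 0 (fun p _ ih => (if p.2 = j then p.1 * (nth ([], 0) L.bas p.2).2 else 0) + ih) cf : ℤ) *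
        z j).sum = (cf.map fun p => p.1 * (nth ([], 0) L.bas p.2).2 * z p.2).sum := by
    intro cf hcf
    induction cf with
    | nil => simp
    | cons p cf ih =>
      rw [List.map_cons, List.sum_cons, ← ih fun q hq => hcf q (List.mem_cons_of_mem _ hq)]
      simp only [add_mul, List.sum_map_add]
      congr 1
      rw [← List.sum_toFinset _ hn, sum_eq_single p.2, if_pos rfl]
      · exact fun j _ hj => by rw [if_neg (Ne.symm hj), zero_mul]
      · exact fun h4 => absurd (List.mem_toFinset.2 (hcf p List.mem_cons_self)) h4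
  have h4 := key b.js fun _ hj => hj
  simp only [num, mul_assoc, List.sum_map_mul_left] at h4
  rw [key2 _ h2] at h4
  have h5 : (((nth (0, []) L.inv φ).1 : ℤ) : ℚ) ≠ 0 := Int.cast_ne_zero.2 h1
  rw [a, coz, mul_div_assoc', eq_div_iff h5, mul_comm]
  exact_mod_cast h4

theorem sum_bl (h : L.ceOK c = true) (g : ℕ → ℚ) :
    ∑ φ ∈ range L.nd.K, g φ = (c.bl.map fun b => (b.ph.map g).sum).sum := by
  simp only [ceOK, Bool.and_eq_true, decide_eq_true_eq] at h
  have h1 : ∑ φ ∈ range L.nd.K, g φ = ((List.range L.nd.K).map g).sum := rfl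
  rw [h1, ← (h.1.2.map g).sum_eq]
  induction c.bl with
  | nil => rfl
  | cons b bs ih => rw [List.flatMap_cons, List.map_append, List.sum_append, ih, List.map_cons, List.sum_cons]

theorem enum_sound (hc : L.ceOK c = true) {fs : List (List ℤ)} {B : ℤ} {P : ℤ → List ℤ → Bool}
    (h : L.enum c fs B P = true) (z : ℕ → ℤ) (hz : c.S * L.nrm z ≤ B) :
    ∃ (rem : ℤ) (v : List ℤ → ℤ), (rem : ℚ) = B - c.S * L.nrm z ∧
      (∀ t, (v t : ℚ) = c.N * ∑ φ ∈ range L.nd.K, ((nth 0 t φ : ℤ) : ℚ) * L.a z φ) ∧ P rem (fs.map v) = true := by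
  have hc' := hc
  simp only [ceOK, Bool.and_eq_true, decide_eq_true_eq, List.all_eq_true] at hc'
  obtain ⟨⟨⟨hN, hν⟩, -⟩, hb⟩ := hc'
  rw [enum, fl_eq (fun b k => by rw [fR, fl_eq (fun r k => by rw [fi_eq, fi_eq, fl_eq fi_eq]), fm_eq]), fi_eq] at h
  have hQ : (((c.bl.map fun b => Q (dense b.R) (b.js.map z)).sum : ℤ) : ℚ) = c.S * L.nrm z := by
    have h1 : (L.nd.ν 0 : ℚ) ≠ 0 := Int.cast_ne_zero.2 hν
    rw [nrm, mul_div_assoc', mul_sum, sum_div, sum_bl hc, Int.cast_list_sum, List.map_map]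
    refine congrArg List.sum (List.map_congr_left fun b hb' => ?_)
    have h2 := hb b hb'
    have h3 := h2
    simp only [blkOK, Bool.and_eq_true, decide_eq_true_eq, List.all_eq_true] at h3
    rw [Function.comp, ← gram_eq, h3.2, gram_eq, Q, List.map_map, Int.cast_list_sum, List.map_map]
    refine congrArg List.sum (List.map_congr_left fun φ hφ => ?_)
    have h4 := congrArg (Int.cast : ℤ → ℚ) (h3.1.2 φ hφ).2
    simp only [Function.comp, Int.cast_mul, Int.cast_pow, row_spec h2 hφ] at h4 ⊢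
    rw [eq_div_iff h1]
    linear_combination L.a z φ ^ 2 * h4
  have h1 := goB_sound fs Blk.R (L.uu c) (fun b => b.js.map z) c.bl (fun b hb' => by
    have h3 := hb b hb'
    simp only [blkOK, Bool.and_eq_true, decide_eq_true_eq, List.all_eq_true] at h3
    exact ⟨h3.1.1.2, by rw [List.length_map, h3.1.1.1.2]⟩) B (fun _ => 0) h (by
      rw [← hQ] at hz; exact_mod_cast hz)
  refine ⟨_, _, by rw [Int.cast_sub, hQ], fun t => ?_, h1⟩
  rw [zero_add, mul_sum, sum_bl hc, Int.cast_list_sum, List.map_map]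
  refine congrArg List.sum (List.map_congr_left fun b hb' => ?_)
  rw [Function.comp, uu, dot_comb, List.map_map]
  have h2 := fun φ hφ => row_spec (hb b hb') (φ := φ) hφ z
  generalize b.ph = ph at h2
  induction ph with
  | nil => rfl
  | cons φ ph ih =>
    show ((nth 0 t φ * _ + _ : ℤ) : ℚ) = _
    rw [Int.cast_add, ih fun χ hχ => h2 χ (List.mem_cons_of_mem _ hχ), List.map_cons, List.sum_cons, Int.cast_mul,
      Function.comp, h2 φ List.mem_cons_self]
    ring

variable (L) in
/-- the functional "value at the class `k`" -/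
def col (k : ℕ) : List ℤ := nth [] L.nd.XC k

theorem col_val (z : ℕ → ℤ) (k : ℕ) : ∑ φ ∈ range L.nd.K, ((nth 0 (L.col k) φ : ℤ) : ℚ) * L.a z φ = L.val z k :=
  sum_congr rfl fun _ _ => mul_comm _ _

/-- the enumeration with the values at the classes `ks` -/
theorem enum_val (hc : L.ceOK c = true) {ks : List ℕ} {B : ℤ} {P : ℤ → List ℤ → Bool}
    (h : L.enum c (ks.map L.col) B P = true) (z : ℕ → ℤ) (hz : c.S * L.nrm z ≤ B) :
    ∃ (rem : ℤ) (v : ℕ → ℤ), (rem : ℚ) = B - c.S * L.nrm z ∧ (∀ k, (v k : ℚ) = c.N * L.val z k) ∧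
      P rem (ks.map v) = true := by
  obtain ⟨rem, v, h1, h2, h3⟩ := enum_sound hc h z hz
  exact ⟨rem, fun k => v (L.col k), h1, fun k => by rw [h2, col_val], by rwa [List.map_map] at h3⟩

end Lat

theorem forall₂_mem_left {α β : Type} {R : α → β → Prop} {l : List α} {m : List β} (h : List.Forall₂ R l m) {a : α}
    (ha : a ∈ l) : ∃ b ∈ m, R a b := forall₂_mem_right h.flip ha

/-- a test `T L c` for all nodes of a list -/
theorem all_of_all2 {Ls : List Lat} {cs : List Ce} (h : List.Forall₂ (fun (L : Lat) c => L.ceOK c = true) Ls cs)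
    {T : Lat → Ce → Bool} (hT : all2 T Ls cs = true) {L : Lat} (hL : L ∈ Ls) : ∃ c, L.ceOK c = true ∧ T L c = true := by
  have h1 := all2_iff.1 hT
  induction h with
  | nil => exact absurd hL List.not_mem_nil
  | cons hab _ ih =>
    rw [List.forall₂_cons] at h1
    rcases List.mem_cons.1 hL with rfl | h2
    · exact ⟨_, hab, h1.1⟩
    · exact ih (all2_iff.2 h1.2) h2 h1.2

end Cfsg.Agent.LV.W
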