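import Cfsg.Agent.LV.W.Node

/-!
# LV/W: integral linear forms on the functions with `Lv` (helper25)

`FC nd L` : forms in the values at the representatives; `FX nd L` : forms in the coordinates.
Rules: `FC.delta`, `FC.avg`, `FC.ind`, `FX.ofC`, `FC.ofX`, `FX.comb` (combinations and level projections).
Output: `FX.out`.
-/

set_option autoImplicit false
set_option linter.unusedSectionVars false

namespace Cfsg.Agent.LV.W

open CoxeterSystem Cfsg.Agent.Tits.Exchange Cfsg.Agent.Tits.Core Cfsg.Agent.Tits.Roots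
  Cfsg.Agent.ChevalleyStructure.CoxeterGeom Cfsg.Agent.LV.T Finset

/-- forms in the values: `∑ c * y (e_k w) ∈ D ℤ` -/
def FC (nd : Nd) (L : List (List (ℤ × ℕ) × ℤ)) : Prop :=
  ∀ {I W : Type} [Fintype I] [DecidableEq I] [Group W] [Fintype W] {M : CoxeterMatrix I} {cs : CoxeterSystem M W}
    {A : I → I → ℤ} {h : IsCartan M A} {ψ : MulAut W} {em : ℕ → I} {J : Set I} {w : W} {y : W → ℂ},
    Fit cs h ψ nd.toTy em J w → Lv cs ψ J w y → Inv cs ψ J y →
    ∀ q ∈ L, ∃ n : ℤ, (q.1.map fun p => (p.1 : ℂ) * y (el cs nd em w p.2)).sum = n * q.2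

/-- forms in the coordinates: `∑ l φ * a φ ∈ D ℤ` -/
def FX (nd : Nd) (L : List (List ℤ × ℤ)) : Prop :=
  ∀ {I W : Type} [Fintype I] [DecidableEq I] [Group W] [Fintype W] {M : CoxeterMatrix I} {cs : CoxeterSystem M W}
    {A : I → I → ℤ} {h : IsCartan M A} {ψ : MulAut W} {em : ℕ → I} {J : Set I} {w : W} {y : W → ℂ} {a : ℕ → ℂ},
    Fit cs h ψ nd.toTy em J w → Lv cs ψ J w y → Inv cs ψ J y → Rp cs nd em w y a →
    ∀ q ∈ L, ∃ n : ℤ, ∑ φ ∈ range nd.K, (nth 0 q.1 φ : ℤ) * a φ = n * q.2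

variable {nd nd' : Nd}

theorem FC.append {L L' : List (List (ℤ × ℕ) × ℤ)} (h : FC nd L) (h' : FC nd L') : FC nd (L ++ L') :=
  fun F hl hy q hq => (List.mem_append.1 hq).elim (h F hl hy q) (h' F hl hy q)

theorem FX.append {L L' : List (List ℤ × ℤ)} (h : FX nd L) (h' : FX nd L') : FX nd (L ++ L') :=
  fun F hl hy H q hq => (List.mem_append.1 hq).elim (h F hl hy H q) (h' F hl hy H q)

theorem FC.nil : FC nd [] := fun _ _ _ _ hq => absurd hq List.not_mem_nil

theorem FX.nil : FX nd [] := fun _ _ _ _ _ hq => absurd hq List.not_mem_nil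

/-- the values are integers -/
theorem FC.delta (nd : Nd) (ks : List ℕ) : FC nd (ks.map fun k => ([(1, k)], 1)) := by
  intro I W _ _ _ _ M cs A h ψ em J w y F hl _ q hq
  obtain ⟨k, -, rfl⟩ := List.mem_map.1 hq
  obtain ⟨n, hn⟩ := hl.int (F.wd_mem (nd.e k))
  exact ⟨n, by simpa [el] using hn⟩

theorem sum_range_map (n : ℕ) (f : ℕ → ℂ) : ((List.range n).map f).sum = ∑ k ∈ range n, f k := rfl

/-- the average is an integer -/
theorem FC.avg (G : nd.Good) : FC nd [((List.range nd.K).map fun k => (nd.n k, k), nd.ν 0)] := by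
  classical
  intro I W _ _ _ _ M cs A h ψ em J w y F hl hy q hq
  rw [List.mem_singleton.1 hq]
  obtain ⟨n, hn⟩ := hl.avg F.aut fun i hi => F.tw_mem G (simple_mem_WJ cs hi)
  have h1 := F.mass G hy
  have h2 : (Nat.card (WJ cs J) : ℂ) ≠ 0 := Nat.cast_ne_zero.2 Nat.card_pos.ne'
  have h3 : (nd.ν 0 : ℂ) ≠ 0 := Int.cast_ne_zero.2 (G.orth G.spec.2.1).1.ne'
  have h4 : (n : ℂ) * Nat.card (WJ cs J) = _ := hn.symm.trans (by convert h1)
  rw [mul_comm, mul_right_inj' h2, eq_div_iff h3] at h4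
  exact ⟨n, by rw [List.map_map, sum_range_map]; exact h4.symm⟩

theorem lin_sum {I W : Type} [Fintype I] [DecidableEq I] [Group W] [Fintype W] {M : CoxeterMatrix I}
    {cs : CoxeterSystem M W} {em : ℕ → I} {w : W} {y : W → ℂ} {a : ℕ → ℂ} (G : nd.Good) (H : Rp cs nd em w y a)
    {ps : List (ℤ × ℕ)} {l : List ℤ} (hl : nd.lin nd.XP ps l = true) :
    (ps.map fun p => (p.1 : ℂ) * y (el cs nd em w p.2)).sum = ∑ φ ∈ range nd.K, (nth 0 l φ : ℤ) * a φ := by
  obtain ⟨h1, h2⟩ := G.lin hl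
  rw [sum_congr rfl fun φ hφ => by rw [← h2 φ (mem_range.1 hφ)]]
  clear h2 hl
  induction ps with
  | nil => simp
  | cons p ps ih =>
    rw [List.map_cons, List.sum_cons, ih fun z hz => h1 z (List.mem_cons_of_mem _ hz),
      H _ (h1 p List.mem_cons_self), mul_sum, ← sum_add_distrib]
    exact sum_congr rfl fun φ _ => by rw [List.map_cons, List.sum_cons]; push_cast; ring

theorem nth_map_mul (m : ℤ) (l : List ℤ) (i : ℕ) : nth 0 (l.map fun x => m * x) i = m * nth 0 l i := by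
  rw [nth_eq, nth_eq, List.getD_eq_getElem?_getD, List.getD_eq_getElem?_getD, List.getElem?_map]
  cases l[i]? <;> simp

/-- the form `p` in the values is the `p.2 / q.2`-fold of the form `q` in the coordinates -/
def cx (nd : Nd) (XP : List ℤ) (p : List (ℤ × ℕ) × ℤ) (q : List ℤ × ℤ) : Bool :=
  (fun m => decide (m ≠ 0) && decide (p.2 = m * q.2) && nd.lin XP p.1 (q.1.map fun x => m * x)) (p.2 / q.2)

theorem cx_spec {I W : Type} [Fintype I] [DecidableEq I] [Group W] [Fintype W] {M : CoxeterMatrix I}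
    {cs : CoxeterSystem M W} {em : ℕ → I} {w : W} {y : W → ℂ} {a : ℕ → ℂ} (G : nd.Good) (H : Rp cs nd em w y a)
    {p : List (ℤ × ℕ) × ℤ} {q : List ℤ × ℤ} (hc : cx nd nd.XP p q = true) :
    (∃ n : ℤ, (p.1.map fun p => (p.1 : ℂ) * y (el cs nd em w p.2)).sum = n * p.2) ↔
      ∃ n : ℤ, ∑ φ ∈ range nd.K, (nth 0 q.1 φ : ℤ) * a φ = n * q.2 := by
  simp only [cx, Bool.and_eq_true, decide_eq_true_eq] at hc
  obtain ⟨⟨h1, h2⟩, h3⟩ := hc
  generalize p.2 / q.2 = m at h1 h2 h3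
  have h4 : (m : ℂ) ≠ 0 := Int.cast_ne_zero.2 h1
  rw [lin_sum G H h3, h2]
  simp only [nth_map_mul, Int.cast_mul, mul_assoc, ← mul_sum, mul_left_comm _ (m : ℂ), mul_right_inj' h4]

theorem forall₂_mem_right {α β : Type} {R : α → β → Prop} {l : List α} {m : List β} (h : List.Forall₂ R l m) {b : β}
    (hb : b ∈ m) : ∃ a ∈ l, R a b := by
  induction h with
  | nil => exact absurd hb List.not_mem_nil
  | cons hab _ ih =>
    rcases List.mem_cons.1 hb with rfl | h1
    · exact ⟨_, List.mem_cons_self, hab⟩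
    · obtain ⟨a, ha, h2⟩ := ih h1
      exact ⟨a, List.mem_cons_of_mem _ ha, h2⟩

theorem FX.ofC (G : nd.Good) {L : List (List (ℤ × ℕ) × ℤ)} (hL : FC nd L) (L' : List (List ℤ × ℤ))
    (hc : all2 (cx nd nd.XP) L L' = true) : FX nd L' := by
  intro I W _ _ _ _ M cs A h ψ em J w y a F hl hy H q hq
  obtain ⟨p, hp, h1⟩ := forall₂_mem_right (all2_iff.1 hc) hq
  exact (cx_spec G H h1).1 (hL F hl hy p hp)

theorem FC.ofX (G : nd.Good) {L : List (List ℤ × ℤ)} (hL : FX nd L) (L' : List (List (ℤ × ℕ) × ℤ))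
    (hc : all2 (fun q p => cx nd nd.XP p q) L L' = true) : FC nd L' := by
  intro I W _ _ _ _ M cs A h ψ em J w y F hl hy p hp
  obtain ⟨q, hq, h1⟩ := forall₂_mem_right (all2_iff.1 hc) hp
  exact (cx_spec G (exists_rp G y) h1).2 (hL F hl hy (exists_rp G y) q hq)

/-! ### combinations and projections -/

/-- a derivation: levels `(o, c)`, coefficients `(c, j)`, multiplier -/
structure Der where
  msk : List (ℕ × ℤ)
  cf : List (ℤ × ℕ)
  m : ℤ

def Nd.lv (nd : Nd) (o φ : ℕ) : ℤ := nth 0 (nth ⟨[], [], [], []⟩ nd.cas o).lev φ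

def Nd.inm (nd : Nd) (msk : List (ℕ × ℤ)) (φ : ℕ) : Bool := msk.all fun p => decide (nd.lv p.1 φ = p.2)

def derOK (nd : Nd) (L : List (List ℤ × ℤ)) (d : Der) (q : List ℤ × ℤ) : Bool :=
  decide (d.m ≠ 0) && d.msk.all (fun p => Nat.blt p.1 nd.cas.length) &&
  d.cf.all (fun p => Nat.blt p.2 L.length && decide (p.1 * (nth ([], 0) L p.2).2 % (d.m * q.2) = 0)) &&
  (fun cf' : List (ℤ × List ℤ) => allLt nd.K fun φ => cond (nd.inm d.msk φ)
    (decide (d.m * nth 0 q.1 φ = List.rec 0 (fun p _ ih => p.1 * nth 0 p.2 φ + ih) cf')) (decide (nth 0 q.1 φ = 0)))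
    (d.cf.map fun p => (p.1, (nth ([], 0) L p.2).1))

theorem exists_msk {I W : Type} [Fintype I] [DecidableEq I] [Group W] [Fintype W] {M : CoxeterMatrix I}
    {cs : CoxeterSystem M W} {A : I → I → ℤ} {h : IsCartan M A} {ψ : MulAut W} {em : ℕ → I} {J : Set I} {w : W}
    {y : W → ℂ} {a : ℕ → ℂ} (G : nd.Good) (F : Fit cs h ψ nd.toTy em J w) (hl : Lv cs ψ J w y) (hy : Inv cs ψ J y)
    (H : Rp cs nd em w y a) {msk : List (ℕ × ℤ)} (hm : ∀ p ∈ msk, p.1 < nd.cas.length) :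
    ∃ y', Lv cs ψ J w y' ∧ Inv cs ψ J y' ∧ Rp cs nd em w y' fun φ => if nd.inm msk φ = true then a φ else 0 := by
  induction msk with
  | nil => exact ⟨y, hl, hy, H.congr fun φ _ => by simp [Nd.inm]⟩
  | cons p msk ih =>
    obtain ⟨y', h1, h2, h3⟩ := ih fun q hq => hm q (List.mem_cons_of_mem _ hq)
    have hc : nth ⟨[], [], [], []⟩ nd.cas p.1 ∈ nd.cas := by
      rw [nth_eq, List.getD_eq_getElem _ _ (hm p List.mem_cons_self)]; exact List.getElem_mem _
    refine ⟨_, h1.lev F.aut F.min (F.node G hc) p.2, h2.aeval (F.node G hc) _, (h3.lev F G hc h2 p.2).congr fun φ _ => ?_⟩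
    have e : nd.inm (p :: msk) φ = (decide (nd.lv p.1 φ = p.2) && nd.inm msk φ) := rfl
    rw [e]
    by_cases h4 : nd.lv p.1 φ = p.2
    · rw [if_pos (show nth 0 (nth ⟨[], [], [], []⟩ nd.cas p.1).lev φ = p.2 from h4), decide_eq_true h4, Bool.true_and]
    · rw [if_neg (show ¬ nth 0 (nth ⟨[], [], [], []⟩ nd.cas p.1).lev φ = p.2 from h4), decide_eq_false h4,
        Bool.false_and, if_neg Bool.false_ne_true]

theorem FX.comb (G : nd.Good) {L : List (List ℤ × ℤ)} (hL : FX nd L) (ds : List Der) (L' : List (List ℤ × ℤ))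
    (hc : all2 (derOK nd L) ds L' = true) : FX nd L' := by
  intro I W _ _ _ _ M cs A h ψ em J w y a F hl hy H q hq
  obtain ⟨d, -, h1⟩ := forall₂_mem_right (all2_iff.1 hc) hq
  simp only [derOK, Bool.and_eq_true, decide_eq_true_eq, List.all_eq_true, Nat.blt_eq, allLt_iff] at h1
  obtain ⟨⟨⟨h1, h2⟩, h3⟩, h4⟩ := h1
  obtain ⟨y', l1, l2, l3⟩ := exists_msk G F hl hy H h2
  have key : ∀ cf : List (ℤ × ℕ), (∀ p ∈ cf, p.2 < L.length ∧ p.1 * (nth ([], 0) L p.2).2 % (d.m * q.2) = 0) →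
      ∃ n : ℤ, ∑ φ ∈ range nd.K, ((List.rec 0 (fun p _ ih => p.1 * nth 0 p.2 φ + ih)
        (cf.map fun p => (p.1, (nth ([], 0) L p.2).1)) : ℤ) : ℂ) * (if nd.inm d.msk φ = true then a φ else 0) =
        n * (d.m * q.2) := by
    intro cf hcf
    induction cf with
    | nil => exact ⟨0, by simp⟩
    | cons p cf ih =>
      obtain ⟨n, hn⟩ := ih fun z hz => hcf z (List.mem_cons_of_mem _ hz)
      obtain ⟨p1, p2⟩ := hcf p List.mem_cons_self
      obtain ⟨n', hn'⟩ := hL F l1 l2 l3 (nth ([], 0) L p.2) (by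
        rw [nth_eq, List.getD_eq_getElem _ _ p1]; exact List.getElem_mem _)
      obtain ⟨c, hc⟩ := Int.dvd_of_emod_eq_zero p2
      have hc' := congrArg (Int.cast : ℤ → ℂ) hc
      refine ⟨n' * c + n, ?_⟩
      simp only [List.map_cons, Int.cast_add, Int.cast_mul, add_mul, sum_add_distrib, mul_assoc, ← mul_sum] at hc' ⊢
      rw [hn, hn', mul_left_comm, hc']; ring
  obtain ⟨n, hn⟩ := key d.cf h3
  refine ⟨n, mul_left_cancel₀ (Int.cast_ne_zero.2 h1 : (d.m : ℂ) ≠ 0) ?_⟩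
  rw [mul_left_comm, ← hn, mul_sum]
  refine sum_congr rfl fun φ hφ => ?_
  have h5 := h4 φ (mem_range.1 hφ)
  cases e : nd.inm d.msk φ
  · rw [e, cond_false, decide_eq_true_eq] at h5
    simp [h5]
  · rw [e, cond_true, decide_eq_true_eq] at h5
    rw [← h5, if_pos rfl]; push_cast; ring

/-! ### induction from a smaller coset -/

/-- an embedding: letters, table of the letters, coset representative, fusion -/
structure Emb where
  io : List ℕ
  tbi : ℕ
  x : ℕ
  fus : List ℕ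

def Emb.ι (E : Emb) (i : ℕ) : ℕ := nth 0 E.io i

/-- the smaller coset fits -/
def fitOK (t t' : Ty) (E : Emb) : Bool :=
  tabOK t'.r t.r t.AL E.ι E.tbi &&
  allLt t'.r fun i => allLt t'.r (fun j => decide (ga t.AL (E.ι i) (E.ι j) = ga t'.AL i j)) &&
    Nat.blt 64 (dg (run t.tab E.x t.n0) (E.ι i)) &&
    Nat.beq (run t.tab E.x (step t.tab (t.σ (E.ι i)) t.n0)) (step t.tab (E.ι (t'.σ i)) (run t.tab E.x t.n0))

def embOK (nd nd' : Nd) (E : Emb) : Bool :=
  fitOK nd.toTy nd'.toTy E && allLt nd'.K fun k => Nat.blt (Nat.mod (nth 0 E.fus k) 256) nd.K &&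
    nd.cj (fun N => run E.tbi (nd'.e k) (run nd.tab E.x N)) (nth 0 E.fus k)

section
variable {I W : Type} [Fintype I] [DecidableEq I] [Group W] [Fintype W] {M : CoxeterMatrix I}
  {cs : CoxeterSystem M W} {A : I → I → ℤ} {h : IsCartan M A} {ψ : MulAut W} {em : ℕ → I} {J : Set I} {w : W}

theorem Fit.sub {t t' : Ty} (F : Fit cs h ψ t em J w) (ht : t.ok = true) (ht' : t'.ok = true) {E : Emb}
    (hE : fitOK t t' E = true) : {i | ∃ a < t'.r, em (E.ι a) = i} ⊆ J ∧
    Fit cs h ψ t' (fun i => em (E.ι i)) {i | ∃ a < t'.r, em (E.ι a) = i} (wd cs em t.r E.x * w) := by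
  simp only [fitOK, Bool.and_eq_true, allLt_iff, decide_eq_true_eq, Nat.blt_eq, Nat.beq_eq] at hE
  obtain ⟨h1, h2⟩ := hE
  have hι : ∀ i < t'.r, E.ι i < t.r := fun i hi => tabOK_lt (Ty.ok_iff ht').1 h1 hi
  have hx := F.wd_mem E.x
  refine ⟨?_, fun i hi j hj => ?_, fun i => Iff.rfl, F.aut, min_iff.2 ?_, fun i hi => ?_⟩
  · rintro _ ⟨a, ha, rfl⟩
    exact F.em_mem (hι a ha)
  · rw [F.car _ (hι i hi) _ (hι j hj), (h2 i hi).1.1 j hj]
  · rintro _ ⟨a, ha, rfl⟩
    have h3 := (h2 a ha).1.2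
    rw [F.run_one ht, F.up ht hx (hι a ha)] at h3
    rw [← mul_assoc, F.min _ hx, F.min _ (mul_mem (simple_mem_WJ cs (F.em_mem (hι a ha))) hx)]
    omega
  · have h3 := (h2 i hi).2
    have s1 := Ty.σ_lt ht (hι i hi)
    have s2 := hι _ (Ty.σ_lt ht' hi)
    rw [F.run_one ht, F.step_simple ht s2 hx, ← cd_one (cs := cs) (h := h) (em := em) ht,
      F.step_simple ht s1 (one_mem _), mul_one, F.run_cd ht _ (simple_mem_WJ cs (F.em_mem s1))] at h3
    have h4 := F.cd_inj ht (mul_mem hx (simple_mem_WJ cs (F.em_mem s1)))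
      (mul_mem (simple_mem_WJ cs (F.em_mem s2)) hx) h3
    rw [mul_assoc, F.tw _ (hι i hi), ← mul_assoc, h4, mul_assoc]

theorem Inv.mono {J' : Set I} {y : W → ℂ} (hy : Inv cs ψ J y) (hJ : J' ⊆ J) : Inv cs ψ J' y :=
  fun g hg => hy g (WJ_mono cs hJ hg)

/-- fusion -/
theorem Fit.fus (F : Fit cs h ψ nd.toTy em J w) (G : nd.Good) (G' : nd'.Good) {E : Emb} (hE : embOK nd nd' E = true)
    {y : W → ℂ} (hy : Inv cs ψ J y) {k : ℕ} (hk : k < nd'.K) : nth 0 E.fus k % 256 < nd.K ∧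
    y (el cs nd' (fun i => em (E.ι i)) (wd cs em nd.r E.x * w) k) = y (el cs nd em w (nth 0 E.fus k % 256)) := by
  simp only [embOK, Bool.and_eq_true, allLt_iff, Nat.blt_eq] at hE
  obtain ⟨h1, h2⟩ := hE
  have h3 : tabOK nd'.r nd.r nd.AL E.ι E.tbi = true := by
    rw [fitOK, Bool.and_eq_true] at h1; exact h1.1
  have hr := (Ty.ok_iff G'.ok).1
  have hx := F.wd_mem E.x
  have h4 := F.cj G (a := wdF cs em nd'.r E.ι 256 (nd'.e k) * wd cs em nd.r E.x)
    (mul_mem (F.wdF_mem (fun i hi => tabOK_lt hr h3 hi) _ _) hx) (fun u hu => by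
      rw [F.run_cd G.ok _ hu, run, F.runF_cd G.ok hr h3 _ _ (mul_mem hx hu), mul_assoc]) (h2 k hk).2 (h2 k hk).1
  refine ⟨(h2 k hk).1, ?_⟩
  have h5 : ∀ f n, wdF cs (fun i => em (E.ι i)) nd'.r id f n = wdF cs em nd'.r E.ι f n := fun _ _ => rfl
  rw [el, el, ← F.conj hy h4, mul_assoc, wd, h5]

end

/-- the image of the forms -/
def push (E : Emb) (L : List (List (ℤ × ℕ) × ℤ)) : List (List (ℤ × ℕ) × ℤ) :=
  L.map fun q => (q.1.map fun p => (p.1, Nat.mod (nth 0 E.fus p.2) 256), q.2)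

theorem FC.ind (G : nd.Good) (G' : nd'.Good) {L : List (List (ℤ × ℕ) × ℤ)} (hL : FC nd' L) (E : Emb)
    (hE : (embOK nd nd' E && L.all fun q => q.1.all fun p => Nat.blt p.2 nd'.K) = true) : FC nd (push E L) := by
  intro I W _ _ _ _ M cs A h ψ em J w y F hl hy q hq
  obtain ⟨q', hq', rfl⟩ := List.mem_map.1 hq
  simp only [Bool.and_eq_true, List.all_eq_true, Nat.blt_eq] at hE
  have h1 : fitOK nd.toTy nd'.toTy E = true := by
    have := hE.1
    rw [embOK, Bool.and_eq_true] at this; exact this.1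
  obtain ⟨h2, F'⟩ := F.sub G.ok G'.ok h1
  obtain ⟨n, hn⟩ := hL F' (hl.mono h2 (F.wd_mem E.x)) (hy.mono h2) q' hq'
  refine ⟨n, Eq.trans ?_ hn⟩
  rw [List.map_map]
  exact congrArg List.sum (List.map_congr_left fun p hp =>
    congrArg _ (F.fus G G' hE.1 hy (hE.2 q' hq' p hp)).2.symm)

/-- several embeddings of the same node -/
theorem FC.inds (G : nd.Good) (G' : nd'.Good) {L : List (List (ℤ × ℕ) × ℤ)} (hL : FC nd' L) (Es : List Emb)
    (hE : ((Es.all fun E => embOK nd nd' E) && L.all fun q => q.1.all fun p => Nat.blt p.2 nd'.K) = true) :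
    FC nd (Es.flatMap fun E => push E L) := by
  intro I W _ _ _ _ M cs A h ψ em J w y F hl hy q hq
  obtain ⟨E, h1, h2⟩ := List.mem_flatMap.1 hq
  rw [Bool.and_eq_true, List.all_eq_true] at hE
  exact FC.ind G G' hL E (by rw [hE.1 E h1, hE.2]; rfl) F hl hy q h2

/-! ### selection, values at words, decoding -/

theorem FC.pick {L : List (List (ℤ × ℕ) × ℤ)} (hL : FC nd L) (ix : List ℕ)
    (hc : (ix.all fun j => Nat.blt j L.length) = true) : FC nd (ix.map (nth ([], 0) L)) := by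
  intro I W _ _ _ _ M cs A h ψ em J w y F hl hy q hq
  obtain ⟨j, hj, rfl⟩ := List.mem_map.1 hq
  have h1 : j < L.length := by simpa only [Nat.blt_eq] using List.all_eq_true.1 hc j hj
  exact hL F hl hy _ (by rw [nth_eq, List.getD_eq_getElem _ _ h1]; exact List.getElem_mem _)

theorem FX.pick {L : List (List ℤ × ℤ)} (hL : FX nd L) (ix : List ℕ)
    (hc : (ix.all fun j => Nat.blt j L.length) = true) : FX nd (ix.map (nth ([], 0) L)) := by
  intro I W _ _ _ _ M cs A h ψ em J w y a F hl hy H q hq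
  obtain ⟨j, hj, rfl⟩ := List.mem_map.1 hq
  have h1 : j < L.length := by simpa only [Nat.blt_eq] using List.all_eq_true.1 hc j hj
  exact hL F hl hy H _ (by rw [nth_eq, List.getD_eq_getElem _ _ h1]; exact List.getElem_mem _)

/-- the word `l` (list of letters) belongs to the class `c % 256`, the conjugating word is `c / 256` -/
def clsOK (nd : Nd) (l : List ℕ) (c : ℕ) : Bool := (l.all fun a => Nat.blt a nd.r) && nd.cj (runL nd.tab l) c &&
  Nat.blt (Nat.mod c 256) nd.K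

theorem Fit.cls {I W : Type} [Fintype I] [DecidableEq I] [Group W] [Fintype W] {M : CoxeterMatrix I}
    {cs : CoxeterSystem M W} {A : I → I → ℤ} {h : IsCartan M A} {ψ : MulAut W} {em : ℕ → I} {J : Set I} {w : W}
    (F : Fit cs h ψ nd.toTy em J w) (G : nd.Good) {l : List ℕ} {c : ℕ} (hc : clsOK nd l c = true) :
    c % 256 < nd.K ∧ (∃ g ∈ WJ cs J, cs.wordProd (l.map em) * w * ψ g = g * el cs nd em w (c % 256)) ∧
      ∀ y, Inv cs ψ J y → y (cs.wordProd (l.map em) * w) = y (el cs nd em w (c % 256)) := by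
  simp only [clsOK, Bool.and_eq_true, List.all_eq_true, Nat.blt_eq] at hc
  have h1 := F.cj G (F.prod_mem hc.1.1) (fun u hu => F.runL_cd G.ok hc.1.1 hu) hc.1.2 hc.2
  refine ⟨hc.2, ⟨_, F.wd_mem (c >>> 8), ?_⟩, fun y hy => F.conj hy h1⟩
  rw [mul_assoc, F.tw_wd, ← mul_assoc, h1, el, mul_assoc]

/-- a list of numbers packed into one number -/
def unp (s n : ℕ) : List ℕ :=
  Nat.rec (motive := fun _ => ℕ → List ℕ) (fun _ => []) (fun _ ih n => cond (Nat.beq n 0) []
    ((fun l => Nat.mod (Nat.shiftRight n s) (Nat.shiftLeft 1 l) :: ih (Nat.shiftRight n (Nat.add s l)))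
      (Nat.mod n (Nat.shiftLeft 1 s)))) 100000 n

def dz (x : ℕ) : ℤ := cond (Nat.beq (Nat.mod x 2) 0) (Int.ofNat (Nat.shiftRight x 1)) (Int.negSucc (Nat.shiftRight x 1))

/-- a list of integers packed into one number -/
def unz (s n : ℕ) : List ℤ := (unp s n).map dz

/-- pairs -/
def prs {α β : Type} (f : ℕ → α) (g : ℕ → β) (l : List ℕ) : List (α × β) :=
  List.rec (motive := fun _ => Option ℕ → List (α × β)) (fun _ => [])
    (fun a _ ih o => Option.casesOn o (ih (some a)) fun b => (f b, g a) :: ih none) l none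

/-- sparse vector -/
def unv (s n : ℕ) : List (ℤ × ℕ) := prs dz id (unp s n)

/-! ### output -/

/-- the rows `(m, cf)` invert the basis `L`: `m e_φ = ∑ c L_j` -/
def invOK (nd : Nd) (L : List (List ℤ × ℤ)) (R : List (ℤ × List (ℤ × ℕ))) : Bool :=
  allLt nd.K fun φ => (fun q : ℤ × List (ℤ × ℕ) => decide (q.1 ≠ 0) && q.2.all (fun p => Nat.blt p.2 L.length) &&
    (fun cf' : List (ℤ × List ℤ) => allLt nd.K fun φ' =>
      decide (List.rec 0 (fun p _ ih => p.1 * nth 0 p.2 φ' + ih) cf' = if φ' = φ then q.1 else 0))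
    (q.2.map fun p => (p.1, (nth ([], 0) L p.2).1))) (nth (0, []) R φ)

/-- the coordinate `φ` as a function of the lattice coordinates -/
def coz (L : List (List ℤ × ℤ)) (R : List (ℤ × List (ℤ × ℕ))) (z : ℕ → ℤ) (φ : ℕ) : ℚ :=
  (((nth (0, []) R φ).2.map fun p => p.1 * (nth ([], 0) L p.2).2 * z p.2).sum : ℤ) / ((nth (0, []) R φ).1 : ℤ)

theorem FX.out (G : nd.Good) {L : List (List ℤ × ℤ)} (hL : FX nd L) {R : List (ℤ × List (ℤ × ℕ))}
    (hR : invOK nd L R = true) {I W : Type} [Fintype I] [DecidableEq I] [Group W] [Fintype W] {M : CoxeterMatrix I}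
    {cs : CoxeterSystem M W} {A : I → I → ℤ} {h : IsCartan M A} {ψ : MulAut W} {em : ℕ → I} {J : Set I} {w : W}
    {y : W → ℂ} (F : Fit cs h ψ nd.toTy em J w) (hl : Lv cs ψ J w y) (hy : Inv cs ψ J y) :
    ∃ z : ℕ → ℤ, Rp cs nd em w y fun φ => (coz L R z φ : ℚ) := by
  have H := exists_rp (cs := cs) (em := em) (w := w) G y
  generalize (nd.co fun k => y (el cs nd em w k)) = a at H
  have h1 : ∀ j, ∃ n : ℤ, j < L.length →
      ∑ φ ∈ range nd.K, (nth 0 (nth ([], 0) L j).1 φ : ℤ) * a φ = n * (nth ([], 0) L j).2 := fun j => by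
    by_cases hj : j < L.length
    · exact (hL F hl hy H _ (by rw [nth_eq, List.getD_eq_getElem _ _ hj]; exact List.getElem_mem _)).imp
        fun n hn _ => hn
    · exact ⟨0, fun h => absurd h hj⟩
  choose z hz using h1
  refine ⟨z, H.congr fun φ hφ => ?_⟩
  have h2 := allLt_iff.1 hR φ hφ
  simp only [Bool.and_eq_true, decide_eq_true_eq, List.all_eq_true, Nat.blt_eq, allLt_iff] at h2
  obtain ⟨⟨h2, h3⟩, h4⟩ := h2
  have key : ∀ cf : List (ℤ × ℕ), (∀ p ∈ cf, p.2 < L.length) →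
      ∑ φ' ∈ range nd.K, ((List.rec 0 (fun p _ ih => p.1 * nth 0 p.2 φ' + ih)
        (cf.map fun p => (p.1, (nth ([], 0) L p.2).1)) : ℤ) : ℂ) * a φ' =
        ((cf.map fun p => p.1 * (nth ([], 0) L p.2).2 * z p.2).sum : ℤ) := by
    intro cf hcf
    induction cf with
    | nil => simp
    | cons p cf ih =>
      have i1 := ih fun z hz => hcf z (List.mem_cons_of_mem _ hz)
      have i2 := hz p.2 (hcf p List.mem_cons_self)
      simp only [List.map_cons, List.sum_cons, Int.cast_add, Int.cast_mul, add_mul, sum_add_distrib, mul_assoc,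
        ← mul_sum] at i1 ⊢
      rw [i1, i2]; ring
  have h5 := key _ h3
  rw [sum_congr rfl fun φ' hφ' => by rw [h4 φ' (mem_range.1 hφ')]] at h5
  simp only [Int.cast_ite, Int.cast_zero, ite_mul, zero_mul, sum_ite_eq', if_pos (mem_range.2 hφ)] at h5
  have h6 : (((nth (0, []) R φ).1 : ℤ) : ℂ) ≠ 0 := Int.cast_ne_zero.2 h2
  rw [coz, Rat.cast_div, Rat.cast_intCast, Rat.cast_intCast, eq_div_iff h6, ← h5, mul_comm]

end Cfsg.Agent.LV.W
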