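import Cfsg.Agent.LV.W.Cas

/-!
# LV/W: nodes (classes, characters, levels of a twisted coset) (helper25)

`Nd.Good nd` is proved by kernel checks (`Good.mk`, `Up.step`).  Consequences for every coset which fits:
`cover`, `exists_rp` (coordinates), `Rp.lev` (level projections), `mass`, `norm`.
-/

set_option autoImplicit false
set_option linter.unusedSectionVars false

namespace Cfsg.Agent.LV.W

open CoxeterSystem Cfsg.Agent.Tits.Exchange Cfsg.Agent.Tits.Core Cfsg.Agent.Tits.Roots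
  Cfsg.Agent.ChevalleyStructure.CoxeterGeom Cfsg.Agent.LV.T Finset

/-- the data of a node -/
structure Nd extends Ty where
  K : ℕ
  rep : List ℕ
  cod : List ℕ
  nW : List ℤ
  XC : List (List ℤ)
  nu : List ℤ
  b : ℕ
  B : ℤ
  cas : List Cs

namespace Nd

variable (nd : Nd)

/-- value of the character `φ` at the class `k` -/
def X (φ k : ℕ) : ℤ := ga nd.XC k φ
/-- weight of the class -/
def n (k : ℕ) : ℤ := nth 0 nd.nW k
/-- norm of the character -/
def ν (φ : ℕ) : ℤ := nth 0 nd.nu φ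
/-- word of the class -/
def e (k : ℕ) : ℕ := nth 1 nd.rep k
/-- packed columns -/
def XP : List ℤ := nd.XC.map (pkz nd.B)

def lin (XP : List ℤ) (ps : List (ℤ × ℕ)) (l : List ℤ) : Bool := linP nd.K nd.b nd.B XP ps l

def unit (φ : ℕ) (c : ℤ) : List ℤ := List.replicate φ 0 ++ [c]

def orth (XP : List ℤ) : Bool :=
  allLt nd.K fun φ => decide (0 < nd.ν φ) &&
    nd.lin XP ((List.range nd.K).map fun k => (nd.n k * nd.X φ k, k)) (unit φ (nd.ν φ))

def base : Bool :=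
  nd.toTy.ok && Nat.blt 0 nd.K && decide (nd.e 0 = 1) &&
  allLt nd.K (fun k => Nat.beq (nth 0 nd.cod k) (run nd.tab (nd.e k) nd.n0) && decide (nd.X 0 k = 1)) &&
  decide (nd.XC.length = nd.K) && nd.XC.all (fun c => Nat.ble c.length nd.K && c.all fun x => Nat.ble x.natAbs nd.b) &&
  nd.cas.all (fun c => csOK nd.toTy c && decide (nth 0 c.lev 0 = c.tl.length)) &&
  allLt nd.r (fun i => nd.cas.any fun c => decide (i ∈ c.cm)) &&
  allLt nd.K (fun φ => decide (φ = 0) || nd.cas.any fun c => decide (nth 0 c.lev φ ≠ c.tl.length)) &&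
  nd.orth nd.XP

/-- `a * σ(g) = g * e_k`, `c = 256 g + k`; `fa` is the left multiplication by `a` on codes -/
def cj (fa : ℕ → ℕ) (c : ℕ) : Bool :=
  Nat.beq (fa (run nd.tbs (Nat.shiftRight c 8) nd.n0)) (run nd.tab (Nat.shiftRight c 8) (nth 0 nd.cod (Nat.mod c 256)))

end Nd

def all2 {α β : Type} (p : α → β → Bool) (l : List α) : List β → Bool :=
  List.rec (fun m => m.isEmpty) (fun a _ ih m => List.casesOn m false fun c m' => p a c && ih m') l

theorem all2_iff {α β : Type} {p : α → β → Bool} {l : List α} {m : List β} :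
    all2 p l m = true ↔ List.Forall₂ (fun a b => p a b = true) l m := by
  induction l generalizing m with
  | nil => cases m <;> simp [all2]
  | cons a l ih =>
    cases m with
    | nil => simp [all2]
    | cons c m =>
      show (p a c && all2 p l m) = true ↔ _
      rw [Bool.and_eq_true, ih, List.forall₂_cons]

namespace Nd

variable (nd : Nd)

def rowOK (XP : List ℤ) (c : Cs) (k : ℕ) (row : List ℕ) : Bool :=
  all2 (fun t x => nd.cj (fun N => run nd.tab t (run nd.tab (nd.e k) N)) x) c.tl row &&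
    nd.lin XP (row.map fun x => (1, Nat.mod x 256)) (List.zipWith (fun a x => a * x) c.lev (nth [] nd.XC k)) &&
    decide (c.lev.length = nd.K)

def rowsOK (XP : List ℤ) (c : Cs) (rows : List (List ℕ)) : ℕ → Bool :=
  List.rec (fun _ => true) (fun row _ ih k => nd.rowOK XP c k row && ih (Nat.succ k)) rows

/-- the rows below `m` are checked -/
def Up (o m : ℕ) : Prop := ∀ k < m, ∃ row, nd.rowOK nd.XP (nth ⟨[], [], [], []⟩ nd.cas o) k row = true

theorem Up.zero (o : ℕ) : nd.Up o 0 := fun k hk => absurd hk (Nat.not_lt_zero k)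

def upOK (o m m' : ℕ) (rows : List (List ℕ)) : Bool :=
  nd.rowsOK nd.XP (nth ⟨[], [], [], []⟩ nd.cas o) rows m && Nat.ble m' (m + rows.length)

variable {nd}

theorem Up.step {o m m' : ℕ} (h : nd.Up o m) (rows : List (List ℕ)) (hr : nd.upOK o m m' rows = true) : nd.Up o m' := by
  rw [upOK, Bool.and_eq_true, Nat.ble_eq] at hr
  obtain ⟨h1, h2⟩ := hr
  induction rows generalizing m with
  | nil => exact fun k hk => h k (lt_of_lt_of_le hk h2)
  | cons row rows ih =>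
    have h3 : (nd.rowOK nd.XP _ m row && nd.rowsOK nd.XP _ rows (m + 1)) = true := h1
    rw [Bool.and_eq_true] at h3
    refine ih (m := m + 1) (fun k hk => ?_) h3.2 (by simp only [List.length_cons] at h2; omega)
    rcases Nat.lt_succ_iff_lt_or_eq.1 hk with h4 | rfl
    exacts [h k h4, ⟨row, h3.1⟩]

variable (nd) in
/-- all checks -/
structure Good : Prop where
  base : nd.base = true
  rows : ∀ o < nd.cas.length, nd.Up o nd.K

variable (nd) in
/-- all checks at once -/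
def full (cert : List (List (List ℕ))) : Bool :=
  nd.base && allLt nd.cas.length fun o => nd.upOK o 0 nd.K (nth [] cert o)

theorem good_of_full (cert : List (List (List ℕ))) (h : nd.full cert = true) : nd.Good := by
  rw [full, Bool.and_eq_true, allLt_iff] at h
  exact ⟨h.1, fun o ho => (Up.zero nd o).step _ (h.2 o ho)⟩

theorem good_of_one (h : nd.base = true) (h1 : nd.cas.length = 1) (h2 : nd.Up 0 nd.K) : nd.Good :=
  ⟨h, fun o ho => by rwa [show o = 0 by omega]⟩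

theorem nth_unit (φ : ℕ) (c : ℤ) (i : ℕ) : nth 0 (unit φ c) i = if i = φ then c else 0 := by
  induction φ generalizing i with
  | zero => cases i <;> simp [unit, nth_zero, nth_succ, nth_nil]
  | succ φ ih =>
    cases i with
    | zero => simp [unit, List.replicate_succ, nth_zero]
    | succ i =>
      show nth 0 (unit φ c) i = _
      rw [ih]; simp

theorem Good.spec (G : nd.Good) : nd.toTy.ok = true ∧ 0 < nd.K ∧ nd.e 0 = 1 ∧
    (∀ k < nd.K, nth 0 nd.cod k = run nd.tab (nd.e k) nd.n0 ∧ nd.X 0 k = 1) ∧ nd.XC.length = nd.K ∧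
    (∀ c ∈ nd.XC, c.length ≤ nd.K ∧ ∀ x ∈ c, x.natAbs ≤ nd.b) ∧
    (∀ c ∈ nd.cas, csOK nd.toTy c = true ∧ nth 0 c.lev 0 = c.tl.length) ∧ (∀ i < nd.r, ∃ c ∈ nd.cas, i ∈ c.cm) ∧
    (∀ φ < nd.K, φ = 0 ∨ ∃ c ∈ nd.cas, nth 0 c.lev φ ≠ c.tl.length) ∧ nd.orth nd.XP = true := by
  simpa only [Nd.base, Bool.and_eq_true, decide_eq_true_eq, allLt_iff, List.all_eq_true, List.any_eq_true,
    Bool.or_eq_true, Nat.blt_eq, Nat.ble_eq, Nat.beq_eq, and_assoc] using G.base

theorem Good.ok (G : nd.Good) : nd.toTy.ok = true := G.spec.1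

theorem Good.lin (G : nd.Good) {ps : List (ℤ × ℕ)} {l : List ℤ} (h : nd.lin nd.XP ps l = true) :
    (∀ p ∈ ps, p.2 < nd.K) ∧ ∀ φ < nd.K, (ps.map fun p => p.1 * nd.X φ p.2).sum = nth 0 l φ :=
  linP_spec G.spec.2.2.2.2.1 G.spec.2.2.2.2.2.1 h

theorem Good.orth (G : nd.Good) {φ : ℕ} (hφ : φ < nd.K) : 0 < nd.ν φ ∧
    ∀ φ' < nd.K, ∑ k ∈ range nd.K, nd.n k * nd.X φ k * nd.X φ' k = if φ' = φ then nd.ν φ else 0 := by
  have h1 := allLt_iff.1 G.spec.2.2.2.2.2.2.2.2.2 φ hφ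
  rw [Bool.and_eq_true, decide_eq_true_eq] at h1
  refine ⟨h1.1, fun φ' hφ' => ?_⟩
  rw [← nth_unit, ← (G.lin h1.2).2 φ' hφ', List.map_map]
  rfl

theorem Good.row (G : nd.Good) {c : Cs} (hc : c ∈ nd.cas) {k : ℕ} (hk : k < nd.K) :
    ∃ row, nd.rowOK nd.XP c k row = true := by
  obtain ⟨o, ho, rfl⟩ := List.getElem_of_mem hc
  have := G.rows o ho k hk
  rwa [nth_eq, List.getD_eq_getElem _ _ ho] at this

variable (nd) in
/-- the coordinates of a vector -/
def co {R : Type} [Field R] (f : ℕ → R) (φ : ℕ) : R := (∑ k ∈ range nd.K, (nd.n k * nd.X φ k : ℤ) * f k) / nd.ν φ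

theorem Good.co_eq (G : nd.Good) {R : Type} [Field R] [CharZero R] {f a : ℕ → R}
    (h : ∀ k < nd.K, f k = ∑ φ ∈ range nd.K, a φ * nd.X φ k) {φ : ℕ} (hφ : φ < nd.K) : nd.co f φ = a φ := by
  obtain ⟨h1, h2⟩ := G.orth hφ
  have h3 : (nd.ν φ : R) ≠ 0 := Int.cast_ne_zero.2 h1.ne'
  rw [co, div_eq_iff h3, sum_congr rfl fun k hk => by rw [h k (mem_range.1 hk), mul_sum], sum_comm]
  have h4 : ∀ φ' ∈ range nd.K, ∑ k ∈ range nd.K, ((nd.n k * nd.X φ k : ℤ) : R) * (a φ' * nd.X φ' k) =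
      if φ' = φ then a φ * nd.ν φ else 0 := fun φ' hφ' => by
    have h5 := congrArg (Int.cast : ℤ → R) (h2 φ' (mem_range.1 hφ'))
    have h6 : ∑ k ∈ range nd.K, ((nd.n k * nd.X φ k : ℤ) : R) * (a φ' * nd.X φ' k) =
        a φ' * ((∑ k ∈ range nd.K, nd.n k * nd.X φ k * nd.X φ' k : ℤ) : R) := by
      push_cast; rw [mul_sum]; exact sum_congr rfl fun k _ => by ring
    rw [h6, h5]
    split_ifs with h7
    · rw [h7]
    · simp
  rw [sum_congr rfl h4, sum_ite_eq', if_pos (mem_range.2 hφ)]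

theorem Good.exp (G : nd.Good) {R : Type} [Field R] [CharZero R] (f : ℕ → R) {k : ℕ} (hk : k < nd.K) :
    f k = ∑ φ ∈ range nd.K, nd.co f φ * nd.X φ k := by
  let P : Matrix (Fin nd.K) (Fin nd.K) R := fun φ k => nd.X φ k
  let Q : Matrix (Fin nd.K) (Fin nd.K) R := fun k φ => (nd.n k * nd.X φ k : ℤ) / nd.ν φ
  have h1 : P * Q = 1 := by
    ext φ' φ
    obtain ⟨h1, h2⟩ := G.orth φ.2
    have h3 : (nd.ν φ : R) ≠ 0 := Int.cast_ne_zero.2 h1.ne'
    have h5 := congrArg (Int.cast : ℤ → R) (h2 φ' φ'.2)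
    rw [Matrix.mul_apply, Fin.sum_univ_eq_sum_range
      (fun k => (nd.X φ' k : R) * (((nd.n k * nd.X φ k : ℤ) : R) / nd.ν φ)), Matrix.one_apply]
    have h6 : ∑ k ∈ range nd.K, (nd.X φ' k : R) * (((nd.n k * nd.X φ k : ℤ) : R) / nd.ν φ) =
        ((∑ k ∈ range nd.K, nd.n k * nd.X φ k * nd.X φ' k : ℤ) : R) / nd.ν φ := by
      push_cast; rw [sum_div]; exact sum_congr rfl fun k _ => by ring
    rw [h6, h5]
    by_cases h7 : φ' = φ
    · rw [if_pos h7, if_pos (congrArg Fin.val h7), div_self h3]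
    · rw [if_neg h7, if_neg fun h8 => h7 (Fin.ext h8)]; simp
  have h2 := mul_eq_one_comm.1 h1
  have h3 : ∀ k' ∈ range nd.K, ∑ φ ∈ range nd.K, ((nd.n k' * nd.X φ k' : ℤ) : R) * f k' / nd.ν φ * nd.X φ k =
      if k' = k then f k else 0 := fun k' hk' => by
    have h4 := congrFun (congrFun h2 ⟨k', mem_range.1 hk'⟩) ⟨k, hk⟩
    rw [Matrix.mul_apply, Fin.sum_univ_eq_sum_range
      (fun φ => ((nd.n k' * nd.X φ k' : ℤ) : R) / nd.ν φ * nd.X φ k), Matrix.one_apply] at h4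
    have h5 : ∑ φ ∈ range nd.K, ((nd.n k' * nd.X φ k' : ℤ) : R) * f k' / nd.ν φ * nd.X φ k =
        f k' * ∑ φ ∈ range nd.K, ((nd.n k' * nd.X φ k' : ℤ) : R) / nd.ν φ * nd.X φ k := by
      rw [mul_sum]; exact sum_congr rfl fun φ _ => by ring
    rw [h5, h4]
    by_cases h7 : k' = k
    · subst h7; simp
    · rw [if_neg h7, if_neg fun h8 => h7 (congrArg Fin.val h8), mul_zero]
  simp only [co, sum_div, sum_mul]
  rw [sum_comm, sum_congr rfl h3, sum_ite_eq', if_pos (mem_range.2 hk)]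

theorem Good.quad (G : nd.Good) {R : Type} [Field R] [CharZero R] {f a : ℕ → R}
    (h : ∀ k < nd.K, f k = ∑ φ ∈ range nd.K, a φ * nd.X φ k) :
    ∑ k ∈ range nd.K, nd.n k * f k ^ 2 = ∑ φ ∈ range nd.K, nd.ν φ * a φ ^ 2 := by
  have h1 : ∀ φ ∈ range nd.K, (nd.ν φ : R) * a φ ^ 2 = ∑ k ∈ range nd.K, a φ * ((nd.n k * nd.X φ k : ℤ) * f k) := by
    intro φ hφ
    have h2 := G.co_eq h (mem_range.1 hφ)
    have h3 : (nd.ν φ : R) ≠ 0 := Int.cast_ne_zero.2 (G.orth (mem_range.1 hφ)).1.ne'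
    rw [co, div_eq_iff h3] at h2
    rw [← mul_sum, h2]; ring
  rw [sum_congr rfl h1, sum_comm]
  refine sum_congr rfl fun k hk => ?_
  conv_lhs => rw [sq]; arg 2; arg 1; rw [h k (mem_range.1 hk)]
  rw [sum_mul, mul_sum]
  exact sum_congr rfl fun φ _ => by push_cast; ring

end Nd

variable {I W : Type} [Fintype I] [DecidableEq I] [Group W] [Fintype W] {M : CoxeterMatrix I}
  {cs : CoxeterSystem M W} {A : I → I → ℤ} {h : IsCartan M A} {ψ : MulAut W} {nd : Nd} {em : ℕ → I} {J : Set I} {w : W}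

variable (cs nd em w) in
/-- the representative `e_k w` of the class `k` -/
def el (k : ℕ) : W := wd cs em nd.r (nd.e k) * w

variable (cs nd em w) in
/-- `a` is the coordinate vector of `y` -/
def Rp (y : W → ℂ) (a : ℕ → ℂ) : Prop := ∀ k < nd.K, y (el cs nd em w k) = ∑ φ ∈ range nd.K, a φ * nd.X φ k

theorem wd_one (r : ℕ) : wd cs em r 1 = 1 := rfl

theorem el_zero (G : nd.Good) : el cs nd em w 0 = w := by rw [el, G.spec.2.2.1, wd_one, one_mul]

theorem exists_rp (G : nd.Good) (y : W → ℂ) : Rp cs nd em w y (nd.co fun k => y (el cs nd em w k)) :=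
  fun _ hk => G.exp (fun k => y (el cs nd em w k)) hk

theorem Rp.congr {y : W → ℂ} {a a' : ℕ → ℂ} (H : Rp cs nd em w y a) (e : ∀ φ < nd.K, a φ = a' φ) :
    Rp cs nd em w y a' := fun k hk => (H k hk).trans (sum_congr rfl fun φ hφ => by rw [e φ (mem_range.1 hφ)])

theorem Fit.cj (F : Fit cs h ψ nd.toTy em J w) (G : nd.Good) {a : W} (ha : a ∈ WJ cs J) {fa : ℕ → ℕ}
    (hf : ∀ u ∈ WJ cs J, fa (cd cs h nd.toTy em u) = cd cs h nd.toTy em (a * u)) {c : ℕ} (hc : nd.cj fa c = true)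
    (hk : c % 256 < nd.K) :
    a * ws cs nd.toTy em (c >>> 8) = wd cs em nd.r (c >>> 8) * wd cs em nd.r (nd.e (c % 256)) := by
  have h1 : fa (run nd.tbs (c >>> 8) nd.n0) = run nd.tab (c >>> 8) (nth 0 nd.cod (c % 256)) := Nat.eq_of_beq_eq_true hc
  rw [(G.spec.2.2.2.1 _ hk).1, F.runs_one G.ok, F.run_one G.ok, hf _ (F.ws_mem G.ok _),
    F.run_cd G.ok _ (F.wd_mem _)] at h1
  exact F.cd_inj G.ok (mul_mem ha (F.ws_mem G.ok _)) (mul_mem (F.wd_mem _) (F.wd_mem _)) h1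

theorem Fit.row (F : Fit cs h ψ nd.toTy em J w) (G : nd.Good) {c : Cs} (hc : c ∈ nd.cas) {k : ℕ} (hk : k < nd.K) :
    ∃ row : List ℕ, (∀ x ∈ row, x % 256 < nd.K) ∧
      (∀ φ < nd.K, (row.map fun x => nd.X φ (x % 256)).sum = nth 0 c.lev φ * nd.X φ k) ∧
      List.Forall₂ (fun t x => wd cs em nd.r t * wd cs em nd.r (nd.e k) * ws cs nd.toTy em (x >>> 8) =
        wd cs em nd.r (x >>> 8) * wd cs em nd.r (nd.e (x % 256))) c.tl row := by
  obtain ⟨row, hr⟩ := G.row hc hk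
  simp only [Nd.rowOK, Bool.and_eq_true, all2_iff, decide_eq_true_eq] at hr
  obtain ⟨⟨h1, h2⟩, h3⟩ := hr
  obtain ⟨h4, h5⟩ := G.lin h2
  have h6 : ∀ x ∈ row, x % 256 < nd.K := fun x hx => h4 _ (List.mem_map_of_mem hx)
  refine ⟨row, h6, fun φ hφ => ?_, ?_⟩
  · have h7 := h5 φ hφ
    rw [List.map_map] at h7
    refine Eq.trans (congrArg List.sum (List.map_congr_left fun x _ => (one_mul _).symm)) (h7.trans ?_)
    rw [Nd.X, ga, nth_eq, nth_eq 0 c.lev, nth_eq 0 _ φ, List.getD_eq_getElem?_getD, List.getD_eq_getElem?_getD,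
      List.getD_eq_getElem?_getD, List.getElem?_zipWith]
    cases c.lev[φ]? <;> cases (nth [] nd.XC k)[φ]? <;> simp
  · have h8 : List.Forall₂ (fun (t : ℕ) x => nd.cj (fun N => run nd.tab t (run nd.tab (nd.e k) N)) x = true ∧
        x % 256 < nd.K) c.tl row := by
      rw [List.forall₂_iff_zip] at h1 ⊢
      exact ⟨h1.1, fun hab => ⟨h1.2 hab, h6 _ (List.of_mem_zip hab).2⟩⟩
    refine h8.imp fun t x hx => F.cj G (mul_mem (F.wd_mem _) (F.wd_mem _)) (fun u hu => ?_) hx.1 hx.2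
    rw [F.run_cd G.ok _ hu, F.run_cd G.ok _ (mul_mem (F.wd_mem _) hu), mul_assoc]

theorem Fit.node (F : Fit cs h ψ nd.toTy em J w) (G : nd.Good) {c : Cs} (hc : c ∈ nd.cas) :
    Node cs ψ J (c.set em) w := (F.cs_spec G.ok (G.spec.2.2.2.2.2.2.1 c hc).1).1

theorem Fit.card_rf (F : Fit cs h ψ nd.toTy em J w) (G : nd.Good) {c : Cs} (hc : c ∈ nd.cas) :
    (rf cs (c.set em)).card = c.tl.length := by
  have := (F.cs_spec G.ok (G.spec.2.2.2.2.2.2.1 c hc).1).2 (R := ℕ) fun _ => 1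
  simpa using this

theorem Rp.cas (F : Fit cs h ψ nd.toTy em J w) (G : nd.Good) {c : Cs} (hc : c ∈ nd.cas) {y : W → ℂ} {a : ℕ → ℂ}
    (hy : Inv cs ψ J y) (H : Rp cs nd em w y a) :
    Rp cs nd em w (cas cs (c.set em) y) fun φ => (nth 0 c.lev φ : ℤ) * a φ := by
  intro k hk
  obtain ⟨row, h1, h2, h3⟩ := F.row G hc hk
  rw [cas_apply, (F.cs_spec G.ok (G.spec.2.2.2.2.2.2.1 c hc).1).2]
  have h4 : (c.tl.map fun n => y (wd cs em nd.r n * el cs nd em w k)) =
      row.map fun x => y (el cs nd em w (x % 256)) := by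
    clear h1 h2
    generalize c.tl = tl at h3
    induction h3 with
    | nil => rfl
    | cons hab _ ih => rw [List.map_cons, List.map_cons, ih, el, ← mul_assoc, F.conj hy hab]; rfl
  have h5 : ∀ l : List ℕ, (∀ x ∈ l, x % 256 < nd.K) → (l.map fun x => y (el cs nd em w (x % 256))).sum =
      ∑ φ ∈ range nd.K, a φ * ((l.map fun x => nd.X φ (x % 256)).sum : ℤ) := by
    intro l hl
    induction l with
    | nil => simp
    | cons x l ih =>
      rw [List.map_cons, List.sum_cons, ih fun z hz => hl z (List.mem_cons_of_mem _ hz),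
        H _ (hl x List.mem_cons_self), ← sum_add_distrib]
      exact sum_congr rfl fun φ _ => by rw [List.map_cons, List.sum_cons]; push_cast; ring
  rw [h4, h5 row h1]
  exact sum_congr rfl fun φ hφ => by rw [h2 φ (mem_range.1 hφ)]; push_cast; ring

theorem Rp.aeval (F : Fit cs h ψ nd.toTy em J w) (G : nd.Good) {c : Cs} (hc : c ∈ nd.cas) {y : W → ℂ} {a : ℕ → ℂ}
    (hy : Inv cs ψ J y) (H : Rp cs nd em w y a) (P : Polynomial ℂ) :
    Rp cs nd em w (Polynomial.aeval (T.cas cs (c.set em)) P y) fun φ => P.eval ((nth 0 c.lev φ : ℤ) : ℂ) * a φ := by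
  induction P using Polynomial.induction_on with
  | C z =>
    intro k hk
    rw [Polynomial.aeval_C, Module.algebraMap_end_apply, Pi.smul_apply, smul_eq_mul, H k hk, mul_sum]
    exact sum_congr rfl fun φ _ => by simp only [Polynomial.eval_C]; ring
  | add p q hp hq =>
    intro k hk
    rw [map_add, LinearMap.add_apply, Pi.add_apply, hp k hk, hq k hk, ← sum_add_distrib]
    exact sum_congr rfl fun φ _ => by simp only [Polynomial.eval_add]; ring
  | monomial n z ih =>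
    have h1 := ih.cas F G hc (hy.aeval (F.node G hc) _)
    rw [pow_succ', mul_left_comm, map_mul, Polynomial.aeval_X, Module.End.mul_apply]
    exact h1.congr fun φ _ => by simp only [Polynomial.eval_mul, Polynomial.eval_X]; ring

theorem Rp.lev (F : Fit cs h ψ nd.toTy em J w) (G : nd.Good) {c : Cs} (hc : c ∈ nd.cas) {y : W → ℂ} {a : ℕ → ℂ}
    (hy : Inv cs ψ J y) (H : Rp cs nd em w y a) (c₀ : ℤ) :
    Rp cs nd em w (T.lev cs (c.set em) c₀ y) fun φ => if nth 0 c.lev φ = c₀ then a φ else 0 := by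
  refine (H.aeval F G hc hy _).congr fun φ hφ => ?_
  split_ifs with h1
  · rw [h1, lp_self, one_mul]
  · by_cases h2 : ((nth 0 c.lev φ : ℤ) : ℂ) ∈ spc cs (c.set em)
    · rw [lp_ne h2 fun h3 => h1 (Int.cast_injective h3), zero_mul]
    · have h3 := H.aeval F G hc hy (Lagrange.nodal (spc cs (c.set em)) id)
      rw [nodal_spc] at h3
      have h4 := G.co_eq (f := fun _ => (0 : ℂ)) h3 hφ
      have h5 := Lagrange.eval_nodal_not_at_node (s := spc cs (c.set em)) (v := id)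
        (x := ((nth 0 c.lev φ : ℤ) : ℂ)) fun i hi e => h2 (e ▸ hi)
      have h6 : a φ = 0 := (mul_eq_zero.1 (h4.symm.trans (by simp [Nd.co]))).resolve_left h5
      rw [h6, mul_zero]

theorem Fit.tw_mem (F : Fit cs h ψ nd.toTy em J w) (G : nd.Good) {g : W} (hg : g ∈ WJ cs J) :
    w * ψ g * w⁻¹ ∈ WJ cs J := by
  refine WJ_ind (P := fun g => w * ψ g * w⁻¹ ∈ WJ cs J) (by simp) (fun i hi u _ ih => ?_) hg
  obtain ⟨a, ha, rfl⟩ := (F.mem i).1 hi
  rw [map_mul, ← mul_assoc, F.tw a ha, mul_assoc, mul_assoc, ← mul_assoc w]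
  exact mul_mem (simple_mem_WJ cs (F.em_mem (Ty.σ_lt G.ok ha))) ih

/-- every element of the coset is conjugate to a representative -/
theorem Fit.cover' (F : Fit cs h ψ nd.toTy em J w) (G : nd.Good) {x : W} (hx : x ∈ WJ cs J) :
    ∃ k < nd.K, ∃ g ∈ WJ cs J, x * w * ψ g = g * el cs nd em w k := by
  refine WJ_ind (P := fun x => ∃ k < nd.K, ∃ g ∈ WJ cs J, x * w * ψ g = g * el cs nd em w k)
    ⟨0, G.spec.2.1, 1, one_mem _, by rw [el_zero G, map_one, mul_one]⟩ ?_ hx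
  rintro i hi u - ⟨k, hk, g, hg, e⟩
  obtain ⟨a, ha, rfl⟩ := (F.mem i).1 hi
  obtain ⟨c, hc, hac⟩ := G.spec.2.2.2.2.2.2.2.1 a ha
  have h1 : cs.simple (em a) ∈ rf cs (c.set em) :=
    mem_rf.2 ⟨cs.isReflection_simple _, simple_mem_WJ cs ⟨a, hac, rfl⟩⟩
  have h2 := (conj_mem_rf (node_conj (F.node G hc) (inv_mem hg)) _).1 h1
  rw [inv_inv] at h2
  obtain ⟨t, ht, e1⟩ : ∃ t ∈ c.tl, wd cs em nd.r t = g⁻¹ * cs.simple (em a) * g := by
    classical
    by_contra h3
    push Not at h3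
    have h4 := (F.cs_spec G.ok (G.spec.2.2.2.2.2.2.1 c hc).1).2 (R := ℕ)
      fun z => if z = g⁻¹ * cs.simple (em a) * g then 1 else 0
    rw [sum_ite_eq', if_pos h2, List.map_congr_left fun n hn => if_neg (h3 n hn)] at h4
    simp at h4
  obtain ⟨row, r1, -, r3⟩ := F.row G hc hk
  obtain ⟨j, hj, rfl⟩ := List.getElem_of_mem ht
  have r4 := List.forall₂_iff_get.1 r3
  have r5 := r4.2 j hj (r4.1 ▸ hj)
  simp only [List.get_eq_getElem] at r5
  refine ⟨_, r1 _ (List.getElem_mem (r4.1 ▸ hj)), g * wd cs em nd.r (row[j]'(r4.1 ▸ hj) >>> 8),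
    mul_mem hg (F.wd_mem _), ?_⟩
  rw [map_mul, ← mul_assoc, mul_assoc _ u, mul_assoc _ (u * w), e, el, el, mul_assoc g (wd cs em nd.r (_ >>> 8)),
    ← mul_assoc (wd cs em nd.r (_ >>> 8)), ← r5, e1, mul_assoc _ (ws cs nd.toTy em _), ← F.tw_wd]
  group

theorem Fit.cover (F : Fit cs h ψ nd.toTy em J w) (G : nd.Good) {x : W} (hx : x ∈ WJ cs J) :
    ∃ k < nd.K, ∀ y, Inv cs ψ J y → y (x * w) = y (el cs nd em w k) := by
  obtain ⟨k, hk, g, hg, e⟩ := F.cover' G hx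
  refine ⟨k, hk, fun y hy => ?_⟩
  have h1 := hy g hg (g⁻¹ * (x * w))
  rw [mul_inv_cancel_left, mul_assoc, e, inv_mul_cancel_left] at h1
  exact h1

/-- the average over the coset is the coordinate `0` -/
theorem Rp.mass (F : Fit cs h ψ nd.toTy em J w) (G : nd.Good) [Fintype (WJ cs J)] {y : W → ℂ} {a : ℕ → ℂ}
    (hy : Inv cs ψ J y) (H : Rp cs nd em w y a) : ∑ x : WJ cs J, y (x * w) = Nat.card (WJ cs J) * a 0 := by
  have key : ∀ m ≤ nd.K, ∃ (y' : W → ℂ) (a' : ℕ → ℂ) (D : ℂ), D ≠ 0 ∧ Inv cs ψ J y' ∧ Rp cs nd em w y' a' ∧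
      (∀ φ < m, φ ≠ 0 → a' φ = 0) ∧ a' 0 = D * a 0 ∧ ∑ x : WJ cs J, y' (x * w) = D * ∑ x : WJ cs J, y (x * w) := by
    intro m hm
    induction m with
    | zero => exact ⟨y, a, 1, one_ne_zero, hy, H, fun φ hφ => absurd hφ (Nat.not_lt_zero φ), by simp, by simp⟩
    | succ m ih =>
      obtain ⟨y', a', D, h1, h2, h3, h4, h5, h6⟩ := ih (Nat.le_of_succ_le hm)
      rcases G.spec.2.2.2.2.2.2.2.2.1 m hm with rfl | ⟨c, hc, h7⟩
      · exact ⟨y', a', D, h1, h2, h3, fun φ hφ h0 => absurd (by omega) h0, h5, h6⟩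
      · refine ⟨_, _, ((c.tl.length : ℂ) - (nth 0 c.lev m : ℤ)) * D, mul_ne_zero (sub_ne_zero.2 ?_) h1,
          h2.aeval (F.node G hc) (Polynomial.X - Polynomial.C ((nth 0 c.lev m : ℤ) : ℂ)),
          h3.aeval F G hc h2 _, fun φ hφ h0 => ?_, ?_, ?_⟩
        · exact fun e => h7 (by exact_mod_cast e.symm)
        · rcases Nat.lt_succ_iff_lt_or_eq.1 hφ with h8 | rfl
          · simp [h4 φ h8 h0]
          · simp
        · simp [h5, (G.spec.2.2.2.2.2.2.1 c hc).2, mul_assoc]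
        · simp only [map_sub, Polynomial.aeval_X, Polynomial.aeval_C, LinearMap.sub_apply, Pi.sub_apply,
            Module.algebraMap_end_apply, Pi.smul_apply, smul_eq_mul, sum_sub_distrib, ← mul_sum]
          rw [sum_cas (F.node G hc).sub, F.card_rf G hc, h6]; ring
  obtain ⟨y', a', D, h1, h2, h3, h4, h5, h6⟩ := key _ le_rfl
  refine mul_left_cancel₀ h1 ?_
  have h7 : ∀ x : WJ cs J, y' (x * w) = D * a 0 := fun x => by
    obtain ⟨k, hk, e⟩ := F.cover G x.2
    rw [e _ h2, h3 k hk, sum_eq_single 0, (G.spec.2.2.2.1 k hk).2, h5]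
    · simp
    · exact fun φ hφ h0 => by rw [h4 φ (mem_range.1 hφ) h0, zero_mul]
    · exact fun h0 => absurd (mem_range.2 G.spec.2.1) h0
  rw [← h6, sum_congr rfl fun x _ => h7 x, sum_const, card_univ, Nat.card_eq_fintype_card, nsmul_eq_mul]; ring

/-- the mass formula -/
theorem Fit.mass (F : Fit cs h ψ nd.toTy em J w) (G : nd.Good) [Fintype (WJ cs J)] {y : W → ℂ} (hy : Inv cs ψ J y) :
    ∑ x : WJ cs J, y (x * w) =
      Nat.card (WJ cs J) * ((∑ k ∈ range nd.K, nd.n k * y (el cs nd em w k)) / nd.ν 0) := by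
  rw [(exists_rp G y).mass F G hy, Nd.co]
  exact congrArg (fun z => _ * (z / _)) (sum_congr rfl fun k hk => by
    rw [(G.spec.2.2.2.1 k (mem_range.1 hk)).2, mul_one])

/-- the norm -/
theorem Rp.norm (F : Fit cs h ψ nd.toTy em J w) (G : nd.Good) [Fintype (WJ cs J)] {y : W → ℂ} {a : ℕ → ℚ}
    (hy : Inv cs ψ J y) (H : Rp cs nd em w y fun φ => a φ) : ∑ x : WJ cs J, ‖y (x * w)‖ ^ 2 =
      Nat.card (WJ cs J) * (((∑ φ ∈ range nd.K, nd.ν φ * a φ ^ 2) / nd.ν 0 : ℚ) : ℝ) := by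
  have h1 := F.mass G (y := fun u => ((‖y u‖ ^ 2 : ℝ) : ℂ)) fun g hg u => by simp only [hy g hg u]
  have h2 : ∀ k ∈ range nd.K, (nd.n k : ℂ) * ((‖y (el cs nd em w k)‖ ^ 2 : ℝ) : ℂ) =
      ((nd.n k * (∑ φ ∈ range nd.K, a φ * nd.X φ k) ^ 2 : ℚ) : ℂ) := fun k hk => by
    have e : y (el cs nd em w k) = (((∑ φ ∈ range nd.K, a φ * nd.X φ k : ℚ) : ℝ) : ℂ) := by
      rw [H k (mem_range.1 hk)]; push_cast; rfl
    rw [e, Complex.norm_real, Real.norm_eq_abs, sq_abs]
    push_cast; rfl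
  rw [sum_congr rfl h2, ← Rat.cast_sum, G.quad (f := fun k => ∑ φ ∈ range nd.K, a φ * nd.X φ k) fun _ _ => rfl] at h1
  apply Complex.ofReal_injective
  rw [Complex.ofReal_sum, h1]
  push_cast; rfl

/-- rational coordinates -/
theorem Fit.exists_rat (F : Fit cs h ψ nd.toTy em J w) (G : nd.Good) {y : W → ℂ} (hy : Lv cs ψ J w y) :
    ∃ a : ℕ → ℚ, Rp cs nd em w y fun φ => a φ := by
  choose f hf using fun k => hy.int (F.wd_mem (nd.e k))
  refine ⟨nd.co fun k => (f k : ℚ), (exists_rp G y).congr fun φ _ => ?_⟩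
  simp only [Nd.co, el, hf]
  push_cast; rfl

end Cfsg.Agent.LV.W
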