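import Cfsg.Agent.LV.T.Use
import Cfsg.Agent.Tits.Roots
import Cfsg.Agent.Tits.Generic

/-!
# LV/W, kernel engine for twisted cosets `W_J w`: words and codes (helper25)

An element `u` of `W_J` is coded by the heights of the roots `u⁻¹ α_i`, packed into one number; a word is a number in
base 16 with a leading digit `1`; `run` computes the code of `word * u` from the code of `u`.
-/

set_option autoImplicit false
set_option linter.unusedSectionVars false

namespace Cfsg.Agent.LV.W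

open CoxeterSystem Cfsg.Agent.Tits.Exchange Cfsg.Agent.Tits.Core Cfsg.Agent.Tits.Roots
  Cfsg.Agent.ChevalleyStructure.CoxeterGeom Cfsg.Agent.LV.T Finset

/-! ### kernel part -/

/-- list access -/
def nth {α : Type} (d : α) (l : List α) : ℕ → α :=
  List.rec (fun _ => d) (fun a _ ih n => Nat.rec a (fun m _ => ih m) n) l

theorem nth_nil {α : Type} (d : α) (n : ℕ) : nth d [] n = d := rfl
theorem nth_zero {α : Type} (d a : α) (l : List α) : nth d (a :: l) 0 = a := rfl
theorem nth_succ {α : Type} (d a : α) (l : List α) (n : ℕ) : nth d (a :: l) (n + 1) = nth d l n := rfl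

theorem nth_eq {α : Type} (d : α) (l : List α) (n : ℕ) : nth d l n = l.getD n d := by
  induction l generalizing n with
  | nil => rfl
  | cons a l ih =>
    cases n with
    | zero => rfl
    | succ n => rw [nth_succ, ih]; rfl

/-- bounded quantifier -/
def allLt (n : ℕ) (p : ℕ → Bool) : Bool := Nat.rec true (fun m ih => and (p m) ih) n

theorem allLt_iff {n : ℕ} {p : ℕ → Bool} : allLt n p = true ↔ ∀ i < n, p i = true := by
  induction n with
  | zero => exact ⟨fun _ i hi => absurd hi (Nat.not_lt_zero i), fun _ => rfl⟩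
  | succ n ih =>
    show (p n && allLt n p) = true ↔ _
    rw [Bool.and_eq_true, ih]
    refine ⟨fun h i hi => ?_, fun h => ⟨h n (Nat.lt_succ_self n), fun i hi => h i (Nat.lt_succ_of_lt hi)⟩⟩
    rcases Nat.lt_succ_iff_lt_or_eq.1 hi with h1 | rfl
    exacts [h.2 i h1, h.1]

/-- bounded sum -/
def sumLt (n : ℕ) (f : ℕ → ℤ) : ℤ := Nat.rec 0 (fun m ih => ih + f m) n

theorem sumLt_eq (n : ℕ) (f : ℕ → ℤ) : sumLt n f = ∑ i ∈ range n, f i := by
  induction n with
  | zero => rfl
  | succ n ih => rw [sum_range_succ, ← ih]; rfl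

/-- entry of a matrix -/
def ga (AL : List (List ℤ)) (i j : ℕ) : ℤ := nth 0 (nth [] AL i) j

/-- one letter -/
def step (tab i N : ℕ) : ℕ :=
  (fun e => Nat.mod (Nat.add N (Nat.mul (Nat.add (Nat.mod (Nat.shiftRight N (Nat.mod e 256)) 256)
    340282366920938463463374607431768211392) (Nat.shiftRight e 8))) 340282366920938463463374607431768211456)
    (Nat.shiftRight tab (Nat.mul i 136))

/-- a word -/
def runF (tab f : ℕ) : ℕ → ℕ → ℕ :=
  Nat.rec (fun _ N => N)
    (fun _ ih n N => cond (Nat.ble n 1) N (ih (Nat.shiftRight n 4) (step tab (Nat.mod n 16) N))) f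

/-- a word with at most 256 letters -/
def run (tab n N : ℕ) : ℕ := runF tab 256 n N

/-- a list of letters -/
def runL (tab : ℕ) (l : List ℕ) (N : ℕ) : ℕ := List.rec N (fun a _ ih => step tab a ih) l

/-- the digit which decides whether `i` is a descent -/
def dg (N i : ℕ) : ℕ := Nat.mod (Nat.shiftRight N (Nat.mul 8 i)) 256

/-- correctness of a table -/
def tabOK (m r : ℕ) (AL : List (List ℤ)) (sg : ℕ → ℕ) (tab : ℕ) : Bool :=
  allLt 16 fun i =>
    if i < m then
      decide (sg i < r) && decide (Nat.shiftRight tab (i * 136) % 256 = 8 * sg i) &&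
        decide ((((Nat.shiftRight (Nat.shiftRight tab (i * 136)) 8 : ℕ) : ℤ) +
          sumLt r fun a => ga AL (sg i) a * 256 ^ a) % 340282366920938463463374607431768211456 = 0)
    else decide (Nat.shiftRight (Nat.shiftRight tab (i * 136)) 8 % 340282366920938463463374607431768211456 = 0)

/-- the reflection on coefficient vectors -/
def rfl' (r : ℕ) (AL : List (List ℤ)) (j : ℕ) (β : List ℤ) : List ℤ :=
  β.set j (nth 0 β j - sumLt r fun i => nth 0 β i * ga AL j i)

/-- the list of the positive roots is closed -/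
def rootOK (r : ℕ) (AL : List (List ℤ)) (RL : List (List ℤ)) : Bool :=
  RL.all (fun β => decide (β.length = r) && decide ((sumLt r fun i => nth 0 β i).natAbs < 64) &&
    allLt r fun j => (fun γ => decide (γ ∈ RL) || decide (γ = β.map fun x => -x)) (rfl' r AL j β)) &&
  allLt r fun i => decide ((List.replicate r 0).set i 1 ∈ RL)

/-- the abstract data of a twisted type -/
structure Ty where
  r : ℕ
  AL : List (List ℤ)
  sg : List ℕ
  tab : ℕ
  tbs : ℕ
  n0 : ℕ
  RL : List (List ℤ)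

/-- the twist of the letters -/
def Ty.σ (t : Ty) (i : ℕ) : ℕ := nth 0 t.sg i

def Ty.ok (t : Ty) : Bool :=
  decide (t.r ≤ 16) && tabOK t.r t.r t.AL id t.tab && tabOK t.r t.r t.AL t.σ t.tbs && rootOK t.r t.AL t.RL &&
    decide ((t.n0 : ℤ) = sumLt t.r fun a => 65 * 256 ^ a)

/-! ### digits -/

theorem dig_lt {B r : ℕ} {d : ℕ → ℕ} (hd : ∀ a < r, d a < B) : ∑ a ∈ range r, d a * B ^ a < B ^ r := by
  induction r with
  | zero => simp
  | succ r ih =>
    have h1 := ih fun a ha => hd a (Nat.lt_succ_of_lt ha)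
    have h2 := hd r (Nat.lt_succ_self r)
    rw [sum_range_succ, pow_succ]
    nlinarith [Nat.mul_le_mul_right (B ^ r) (Nat.succ_le_of_lt h2)]

theorem dig_eq {B r : ℕ} {d : ℕ → ℕ} (hd : ∀ a < r, d a < B) {j : ℕ} (hj : j < r) :
    (∑ a ∈ range r, d a * B ^ a) / B ^ j % B = d j := by
  induction r with
  | zero => exact absurd hj (Nat.not_lt_zero j)
  | succ r ih =>
    have hB : 0 < B := lt_of_le_of_lt (Nat.zero_le _) (hd r (Nat.lt_succ_self r))
    have h0 := fun a ha => hd a (Nat.lt_succ_of_lt ha)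
    rw [sum_range_succ]
    rcases Nat.lt_succ_iff_lt_or_eq.1 hj with h1 | rfl
    · obtain ⟨c, rfl⟩ := Nat.exists_eq_add_of_lt h1
      have : d (j + c + 1) * B ^ (j + c + 1) = B ^ j * (B * (d (j + c + 1) * B ^ c)) := by ring
      rw [this, Nat.add_mul_div_left _ _ (pow_pos hB j), Nat.add_mul_mod_self_left, ih h0 h1]
    · rw [Nat.add_mul_div_right _ _ (pow_pos hB j), Nat.div_eq_of_lt (dig_lt h0), zero_add,
        Nat.mod_eq_of_lt (hd j hj)]

/-- the code of a vector -/
def pk (r : ℕ) (v : ℕ → ℤ) : ℕ := ∑ a ∈ range r, (v a + 64).toNat * 256 ^ a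

theorem pk_cast {r : ℕ} {v : ℕ → ℤ} (hv : ∀ a < r, |v a| < 64) :
    (pk r v : ℤ) = ∑ a ∈ range r, (v a + 64) * 256 ^ a := by
  rw [pk]; push_cast
  refine sum_congr rfl fun a ha => ?_
  have := abs_lt.1 (hv a (mem_range.1 ha))
  rw [Int.toNat_of_nonneg (by omega)]

theorem pk_dig {r : ℕ} {v : ℕ → ℤ} (hv : ∀ a < r, |v a| < 64) {j : ℕ} (hj : j < r) :
    ((dg (pk r v) j : ℕ) : ℤ) = v j + 64 := by
  have h1 : dg (pk r v) j = (v j + 64).toNat := by
    show (pk r v >>> (8 * j)) % 256 = _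
    rw [Nat.shiftRight_eq_div_pow, pow_mul]
    refine dig_eq (d := fun a => (v a + 64).toNat) (fun a ha => ?_) hj
    have := abs_lt.1 (hv a ha)
    omega
  have := abs_lt.1 (hv j hj)
  rw [h1, Int.toNat_of_nonneg (by omega)]

theorem pk_lt {r : ℕ} (hr : r ≤ 16) {v : ℕ → ℤ} (hv : ∀ a < r, |v a| < 64) :
    pk r v < 340282366920938463463374607431768211456 := by
  refine lt_of_lt_of_le (dig_lt (B := 256) (d := fun a => (v a + 64).toNat) fun a ha => ?_) ?_
  · have := abs_lt.1 (hv a ha)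
    omega
  · exact le_trans (Nat.pow_le_pow_right (by norm_num) hr) (by norm_num)

theorem step_eq (tab i N : ℕ) : step tab i N =
    (N + ((N >>> ((tab >>> (i * 136)) % 256)) % 256 + 340282366920938463463374607431768211392) *
      ((tab >>> (i * 136)) >>> 8)) % 340282366920938463463374607431768211456 := rfl

theorem step_pk {m r : ℕ} (hr : r ≤ 16) {AL : List (List ℤ)} {sg : ℕ → ℕ} {tab : ℕ} (ht : tabOK m r AL sg tab = true)
    {i : ℕ} (hi : i < m) (h16 : i < 16) {v v' : ℕ → ℤ} (hv : ∀ a < r, |v a| < 64) (hv' : ∀ a < r, |v' a| < 64)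
    (e : ∀ a < r, v' a = v a - ga AL (sg i) a * v (sg i)) : step tab i (pk r v) = pk r v' := by
  have h1 := allLt_iff.1 ht i h16
  simp only [if_pos hi, Bool.and_eq_true, decide_eq_true_eq, sumLt_eq] at h1
  obtain ⟨⟨h1, h2⟩, h3⟩ := h1
  have h2' : (tab >>> (i * 136)) % 256 = 8 * sg i := h2
  have h4 := pk_dig hv h1
  have h5 : (pk r v >>> (8 * sg i)) % 256 = dg (pk r v) (sg i) := rfl
  rw [step_eq, h2', h5, ← Nat.mod_eq_of_lt (pk_lt hr hv')]
  refine Int.natCast_modEq_iff.1 ?_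
  obtain ⟨c, hc⟩ := Int.dvd_of_emod_eq_zero h3
  have h6 : ((Nat.shiftRight (Nat.shiftRight tab (i * 136)) 8 : ℕ) : ℤ) = ((tab >>> (i * 136)) >>> 8 : ℕ) := rfl
  rw [h6] at hc
  have h7 : (pk r v' : ℤ) = pk r v - v (sg i) * ∑ a ∈ range r, ga AL (sg i) a * 256 ^ a := by
    rw [pk_cast hv, pk_cast hv', mul_sum, ← sum_sub_distrib]
    exact sum_congr rfl fun a ha => by rw [e a (mem_range.1 ha)]; ring
  generalize (tab >>> (i * 136)) >>> 8 = R at hc ⊢
  rw [h7, Int.modEq_iff_dvd]
  push_cast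
  rw [h4]
  generalize (∑ a ∈ range r, ga AL (sg i) a * 256 ^ a) = S at hc ⊢
  have h8 : (R : ℤ) = 340282366920938463463374607431768211456 * c - S := by
    rw [← hc]; ring
  rw [h8]
  exact ⟨S - v (sg i) * c - 340282366920938463463374607431768211456 * c, by ring⟩

theorem step_out {m r : ℕ} {AL : List (List ℤ)} {sg : ℕ → ℕ} {tab : ℕ} (ht : tabOK m r AL sg tab = true)
    {i : ℕ} (hi : ¬ i < m) (h16 : i < 16) {N : ℕ} (hN : N < 340282366920938463463374607431768211456) :
    step tab i N = N := by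
  have h1 := allLt_iff.1 ht i h16
  simp only [if_neg hi, decide_eq_true_eq] at h1
  obtain ⟨c, hc⟩ := Nat.dvd_of_mod_eq_zero h1
  have h2 : (tab >>> (i * 136)) >>> 8 = 340282366920938463463374607431768211456 * c := hc
  rw [step_eq, h2, mul_left_comm, Nat.add_mul_mod_self_left, Nat.mod_eq_of_lt hN]

theorem tabOK_lt {m r : ℕ} (hr : m ≤ 16) {AL : List (List ℤ)} {sg : ℕ → ℕ} {tab : ℕ}
    (ht : tabOK m r AL sg tab = true) {i : ℕ} (hi : i < m) : sg i < r := by
  have h1 := allLt_iff.1 ht i (by omega)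
  simp only [if_pos hi, Bool.and_eq_true, decide_eq_true_eq] at h1
  exact h1.1.1

/-! ### the ambient Coxeter system -/

variable {I W : Type} [Fintype I] [DecidableEq I] [Group W] [Fintype W] {M : CoxeterMatrix I}
  (cs : CoxeterSystem M W) {A : I → I → ℤ} (h : IsCartan M A) (ψ : MulAut W)

/-- the abstract type fits the coset `W_J w` -/
structure Fit (cs : CoxeterSystem M W) (_h : IsCartan M A) (ψ : MulAut W) (t : Ty) (em : ℕ → I) (J : Set I) (w : W) : Prop where
  car : ∀ i < t.r, ∀ j < t.r, A (em i) (em j) = ga t.AL i j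
  mem : ∀ i, i ∈ J ↔ ∃ a < t.r, em a = i
  aut : Aut cs ψ
  min : Min cs J w
  tw : ∀ i < t.r, w * ψ (cs.simple (em i)) = cs.simple (em (t.σ i)) * w

/-- invariance under twisted conjugation by `W_J` -/
def Inv (J : Set I) (y : W → ℂ) : Prop := ∀ g ∈ WJ cs J, ∀ u, y (g * u) = y (u * ψ g)

/-- heights -/
def vv (em : ℕ → I) (u : W) (i : ℕ) : ℤ := ht (rep cs h u⁻¹ (sr (em i)))

/-- the letter -/
def sl (em : ℕ → I) (r : ℕ) (sg : ℕ → ℕ) (d : ℕ) : W := if d < r then cs.simple (em (sg d)) else 1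

/-- the word -/
def wdF (em : ℕ → I) (r : ℕ) (sg : ℕ → ℕ) (f : ℕ) : ℕ → W :=
  Nat.rec (fun _ => 1) (fun _ ih n => if n ≤ 1 then 1 else ih (n / 16) * sl cs em r sg (n % 16)) f

/-- the element given by a word -/
def wd (em : ℕ → I) (r n : ℕ) : W := wdF cs em r id 256 n

theorem vv_one (em : ℕ → I) (i : ℕ) : vv cs h em 1 i = 1 := by
  simp [vv, ht, sr]

theorem vv_simple (em : ℕ → I) (u : W) (j : I) (i : ℕ) :
    vv cs h em (cs.simple j * u) i = vv cs h em u i - A j (em i) * ht (rep cs h u⁻¹ (sr j)) := by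
  rw [vv, mul_inv_rev, cs.inv_simple, rep_mul_apply, rep_simple_eq, map_sub, map_zsmul, sr, pairing_single]
  simp only [ht, vv, sr, Pi.sub_apply, Pi.smul_apply, smul_eq_mul, sum_sub_distrib, ← mul_sum, mul_one]

theorem vv_pos (em : ℕ → I) (u : W) (i : ℕ) :
    0 < vv cs h em u i ↔ cs.length u < cs.length (cs.simple (em i) * u) := by
  have e : cs.length (cs.simple (em i) * u) = cs.length (u⁻¹ * cs.simple (em i)) := by
    rw [← cs.length_inv, mul_inv_rev, cs.inv_simple]
  rw [e, ← cs.length_inv u, lt_iff' cs h]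
  have hne := rep_single_ne_zero cs h u⁻¹ (em i)
  constructor
  · intro h1
    rcases nonneg_or_nonpos cs h u⁻¹ (em i) with h2 | h2
    · exact h2
    · exact absurd h1 (not_lt.2 (sum_nonpos fun k _ => h2 k))
  · intro h1
    obtain ⟨k, hk⟩ := Function.ne_iff.1 hne
    exact sum_pos' (fun k _ => h1 k) ⟨k, mem_univ k, lt_of_le_of_ne (h1 k) (Ne.symm hk)⟩

variable {cs h ψ} {t : Ty} {em : ℕ → I} {J : Set I} {w : W}

theorem Fit.em_mem (F : Fit cs h ψ t em J w) {i : ℕ} (hi : i < t.r) : em i ∈ J := (F.mem _).2 ⟨i, hi, rfl⟩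

theorem Fit.vv_step (F : Fit cs h ψ t em J w) (u : W) {j : ℕ} (hj : j < t.r) {i : ℕ} (hi : i < t.r) :
    vv cs h em (cs.simple (em j) * u) i = vv cs h em u i - ga t.AL j i * vv cs h em u j := by
  rw [vv_simple, F.car j hj i hi]; rfl

theorem WJ_ind {P : W → Prop} (h1 : P 1) (hs : ∀ i ∈ J, ∀ u ∈ WJ cs J, P u → P (cs.simple i * u)) {u : W}
    (hu : u ∈ WJ cs J) : P u := by
  obtain ⟨ω, hω, rfl⟩ := exists_word_of_mem_WJ cs hu
  clear hu
  induction ω with
  | nil => simpa using h1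
  | cons a ω ih =>
    rw [cs.wordProd_cons]
    have h2 : ∀ i ∈ ω, i ∈ J := fun i hi => hω i (List.mem_cons_of_mem _ hi)
    exact hs a (hω a List.mem_cons_self) _ (wordProd_mem_WJ cs h2) (ih h2)

theorem Fit.eq_one (F : Fit cs h ψ t em J w) {u : W} (hu : u ∈ WJ cs J) (hp : ∀ i < t.r, 0 < vv cs h em u i) :
    u = 1 := by
  obtain ⟨ω, hω, hr, rfl⟩ := exists_reduced_of_mem_WJ cs hu
  cases ω with
  | nil => exact cs.wordProd_nil
  | cons a ω =>
    obtain ⟨i, hi, rfl⟩ := (F.mem a).1 (hω a List.mem_cons_self)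
    have h1 := (vv_pos cs h em _ i).1 (hp i hi)
    rw [hr, cs.wordProd_cons, cs.simple_mul_simple_cancel_left] at h1
    have h2 := cs.length_wordProd_le ω
    simp only [List.length_cons] at h1
    omega

theorem Fit.vv_inj (F : Fit cs h ψ t em J w) {u u' : W} (hu : u ∈ WJ cs J) (hu' : u' ∈ WJ cs J)
    (e : ∀ i < t.r, vv cs h em u i = vv cs h em u' i) : u = u' := by
  induction hn : cs.length u using Nat.strong_induction_on generalizing u u' with
  | _ n ih =>
    by_cases hp : ∀ i < t.r, 0 < vv cs h em u i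
    · rw [F.eq_one hu hp, F.eq_one hu' fun i hi => e i hi ▸ hp i hi]
    · push Not at hp
      obtain ⟨j, hj, h1⟩ := hp
      have h2 : cs.length (cs.simple (em j) * u) < n := by
        have h3 := mt (vv_pos cs h em u j).2 (not_lt.2 h1)
        have h4 := cs.length_simple_mul_ne u (em j)
        omega
      have hs := simple_mem_WJ cs (F.em_mem hj)
      refine mul_left_cancel (ih _ h2 (mul_mem hs hu) (mul_mem hs hu') (fun i hi => ?_) rfl)
      rw [F.vv_step u hj hi, F.vv_step u' hj hi, e i hi, e j hj]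

theorem Fit.bound (F : Fit cs h ψ t em J w) (hR : rootOK t.r t.AL t.RL = true) {u : W} (hu : u ∈ WJ cs J) :
    ∀ i < t.r, |vv cs h em u i| < 64 := by
  simp only [rootOK, Bool.and_eq_true, List.all_eq_true, decide_eq_true_eq, allLt_iff, Bool.or_eq_true,
    sumLt_eq] at hR
  have key : ∀ β ∈ t.RL, |∑ i ∈ range t.r, nth 0 β i * vv cs h em u i| < 64 := by
    refine WJ_ind (P := fun u => ∀ β ∈ t.RL, |∑ i ∈ range t.r, nth 0 β i * vv cs h em u i| < 64) ?_ ?_ hu
    · intro β hβ
      have := (hR.1 β hβ).1.2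
      simp only [vv_one, mul_one]
      rw [Int.abs_eq_natAbs]; exact_mod_cast this
    · intro a ha u _ ih β hβ
      obtain ⟨j, hj, rfl⟩ := (F.mem a).1 ha
      have hl := (hR.1 β hβ).1.1
      have e : ∑ i ∈ range t.r, nth 0 β i * vv cs h em (cs.simple (em j) * u) i =
          ∑ i ∈ range t.r, nth 0 (rfl' t.r t.AL j β) i * vv cs h em u i := by
        have e1 : ∀ i ∈ range t.r, nth 0 (rfl' t.r t.AL j β) i * vv cs h em u i = nth 0 β i * vv cs h em u i -
            if i = j then (∑ i ∈ range t.r, nth 0 β i * ga t.AL j i) * vv cs h em u j else 0 := by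
          intro i hi
          rw [rfl', sumLt_eq, nth_eq, List.getD_eq_getElem?_getD, List.getElem?_set]
          by_cases hij : j = i
          · subst hij
            rw [if_pos rfl, if_pos (hl ▸ hj), if_pos rfl, Option.getD_some]; ring
          · rw [if_neg hij, if_neg (Ne.symm hij), sub_zero, nth_eq, List.getD_eq_getElem?_getD]
        rw [sum_congr rfl e1, sum_sub_distrib, sum_ite_eq', if_pos (mem_range.2 hj), sum_mul, ← sum_sub_distrib]
        exact sum_congr rfl fun i hi => by rw [F.vv_step u hj (mem_range.1 hi)]; ring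
      rw [e]
      rcases (hR.1 β hβ).2 j hj with h1 | h1
      · exact ih _ h1
      · have e2 : ∀ i, nth 0 (β.map fun x => -x) i = - nth 0 β i := fun i => by
          rw [nth_eq, nth_eq, List.getD_eq_getElem?_getD, List.getD_eq_getElem?_getD, List.getElem?_map]
          cases β[i]? <;> simp
        simp only [h1, e2, neg_mul, sum_neg_distrib, abs_neg]
        exact ih β hβ
  intro i hi
  have h1 := key _ (hR.2 i hi)
  rw [sum_eq_single i] at h1
  · rwa [nth_eq, List.getD_eq_getElem?_getD, List.getElem?_set, if_pos rfl, if_pos (by simpa using hi),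
      Option.getD_some, one_mul] at h1
  · intro j hj hji
    rw [nth_eq, List.getD_eq_getElem?_getD, List.getElem?_set, if_neg (Ne.symm hji), List.getElem?_replicate]
    split_ifs <;> simp
  · exact fun h2 => absurd (mem_range.2 hi) h2

variable (cs h t em) in
/-- the code of an element -/
def cd (u : W) : ℕ := pk t.r (vv cs h em u)

theorem Ty.ok_iff (ht : t.ok = true) : t.r ≤ 16 ∧ tabOK t.r t.r t.AL id t.tab = true ∧
    tabOK t.r t.r t.AL t.σ t.tbs = true ∧
    rootOK t.r t.AL t.RL = true ∧ (t.n0 : ℤ) = ∑ a ∈ range t.r, 65 * 256 ^ a := by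
  simpa only [Ty.ok, Bool.and_eq_true, decide_eq_true_eq, sumLt_eq, and_assoc] using ht

theorem Ty.σ_lt (ht : t.ok = true) {i : ℕ} (hi : i < t.r) : t.σ i < t.r :=
  tabOK_lt (Ty.ok_iff ht).1 (Ty.ok_iff ht).2.2.1 hi

theorem cd_one (ht : t.ok = true) : cd cs h t em 1 = t.n0 := by
  have h1 : (cd cs h t em 1 : ℤ) = t.n0 := by
    rw [cd, pk_cast fun a _ => by rw [vv_one]; norm_num, (Ty.ok_iff ht).2.2.2.2]
    exact sum_congr rfl fun a _ => by rw [vv_one]; norm_num
  exact_mod_cast h1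

theorem Fit.cd_dig (F : Fit cs h ψ t em J w) (ht : t.ok = true) {u : W} (hu : u ∈ WJ cs J) {i : ℕ} (hi : i < t.r) :
    ((dg (cd cs h t em u) i : ℕ) : ℤ) = vv cs h em u i + 64 := pk_dig (F.bound (Ty.ok_iff ht).2.2.2.1 hu) hi

theorem Fit.cd_inj (F : Fit cs h ψ t em J w) (ht : t.ok = true) {u u' : W} (hu : u ∈ WJ cs J) (hu' : u' ∈ WJ cs J)
    (e : cd cs h t em u = cd cs h t em u') : u = u' :=
  F.vv_inj hu hu' fun i hi => by
    have h1 := F.cd_dig ht hu hi
    have h2 := F.cd_dig ht hu' hi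
    rw [e] at h1
    omega

theorem Fit.up (F : Fit cs h ψ t em J w) (ht : t.ok = true) {u : W} (hu : u ∈ WJ cs J) {i : ℕ} (hi : i < t.r) :
    64 < dg (cd cs h t em u) i ↔ cs.length u < cs.length (cs.simple (em i) * u) := by
  have h1 := F.cd_dig ht hu hi
  rw [← vv_pos cs h em u i]
  omega

theorem Fit.sl_mem (F : Fit cs h ψ t em J w) {m : ℕ} {sg : ℕ → ℕ} (hs : ∀ i < m, sg i < t.r) (d : ℕ) :
    sl cs em m sg d ∈ WJ cs J := by
  unfold sl
  split_ifs with hd
  exacts [simple_mem_WJ cs (F.em_mem (hs d hd)), one_mem _]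

theorem Fit.wdF_mem (F : Fit cs h ψ t em J w) {m : ℕ} {sg : ℕ → ℕ} (hs : ∀ i < m, sg i < t.r) (f n : ℕ) :
    wdF cs em m sg f n ∈ WJ cs J := by
  induction f generalizing n with
  | zero => exact one_mem _
  | succ f ih =>
    show (if n ≤ 1 then 1 else wdF cs em m sg f (n / 16) * sl cs em m sg (n % 16)) ∈ _
    split_ifs
    exacts [one_mem _, mul_mem (ih _) (F.sl_mem hs _)]

theorem Fit.wd_mem (F : Fit cs h ψ t em J w) (n : ℕ) : wd cs em t.r n ∈ WJ cs J := F.wdF_mem (fun _ hi => hi) _ n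

theorem Fit.step_cd (F : Fit cs h ψ t em J w) (ht : t.ok = true) {m : ℕ} {sg : ℕ → ℕ} {tab : ℕ} (hm : m ≤ 16)
    (hb : tabOK m t.r t.AL sg tab = true) {d : ℕ} (hd : d < 16) {u : W} (hu : u ∈ WJ cs J) :
    step tab d (cd cs h t em u) = cd cs h t em (sl cs em m sg d * u) := by
  obtain ⟨hr, -, -, hR, -⟩ := Ty.ok_iff ht
  unfold sl
  split_ifs with h1
  · have h2 := tabOK_lt hm hb h1
    exact step_pk hr hb h1 hd (F.bound hR hu) (F.bound hR (mul_mem (simple_mem_WJ cs (F.em_mem h2)) hu))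
      fun a ha => F.vv_step u h2 ha
  · rw [one_mul]
    exact step_out hb h1 hd (pk_lt hr (F.bound hR hu))

theorem Fit.runF_cd (F : Fit cs h ψ t em J w) (ht : t.ok = true) {m : ℕ} {sg : ℕ → ℕ} {tab : ℕ} (hm : m ≤ 16)
    (hb : tabOK m t.r t.AL sg tab = true) (f n : ℕ) {u : W} (hu : u ∈ WJ cs J) :
    runF tab f n (cd cs h t em u) = cd cs h t em (wdF cs em m sg f n * u) := by
  have hs := fun i (hi : i < m) => tabOK_lt hm hb hi
  induction f generalizing n u with
  | zero => exact congrArg (cd cs h t em) (one_mul u).symm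
  | succ f ih =>
    show cond (Nat.ble n 1) _ (runF tab f (n >>> 4) (step tab (n % 16) _)) =
      cd cs h t em ((if n ≤ 1 then 1 else wdF cs em m sg f (n / 16) * sl cs em m sg (n % 16)) * u)
    by_cases h1 : n ≤ 1
    · rw [Nat.ble_eq_true_of_le h1, if_pos h1, one_mul]; rfl
    · have h2 : Nat.ble n 1 = false := Bool.eq_false_iff.2 fun h3 => h1 (Nat.le_of_ble_eq_true h3)
      rw [h2, if_neg h1, F.step_cd ht hm hb (Nat.mod_lt _ (by norm_num)) hu, Nat.shiftRight_eq_div_pow, mul_assoc]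
      exact ih _ (mul_mem (F.sl_mem hs _) hu)

theorem Fit.run_cd (F : Fit cs h ψ t em J w) (ht : t.ok = true) (n : ℕ) {u : W} (hu : u ∈ WJ cs J) :
    run t.tab n (cd cs h t em u) = cd cs h t em (wd cs em t.r n * u) :=
  F.runF_cd ht (Ty.ok_iff ht).1 (Ty.ok_iff ht).2.1 _ n hu

variable (cs t em) in
/-- the twisted word -/
def ws (n : ℕ) : W := wdF cs em t.r t.σ 256 n

theorem Fit.ws_mem (F : Fit cs h ψ t em J w) (ht : t.ok = true) (n : ℕ) : ws cs t em n ∈ WJ cs J :=
  F.wdF_mem (fun _ hi => Ty.σ_lt ht hi) _ n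

theorem Fit.runs_cd (F : Fit cs h ψ t em J w) (ht : t.ok = true) (n : ℕ) {u : W} (hu : u ∈ WJ cs J) :
    run t.tbs n (cd cs h t em u) = cd cs h t em (ws cs t em n * u) :=
  F.runF_cd ht (Ty.ok_iff ht).1 (Ty.ok_iff ht).2.2.1 _ n hu

theorem Fit.tw_wdF (F : Fit cs h ψ t em J w) (f n : ℕ) :
    w * ψ (wdF cs em t.r id f n) = wdF cs em t.r t.σ f n * w := by
  induction f generalizing n with
  | zero => show w * ψ 1 = 1 * w; rw [map_one, mul_one, one_mul]
  | succ f ih =>
    show w * ψ (if n ≤ 1 then 1 else wdF cs em t.r id f (n / 16) * sl cs em t.r id (n % 16)) =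
      (if n ≤ 1 then 1 else wdF cs em t.r t.σ f (n / 16) * sl cs em t.r t.σ (n % 16)) * w
    split_ifs
    · rw [map_one, mul_one, one_mul]
    · rw [map_mul, ← mul_assoc, ih, mul_assoc, mul_assoc]
      congr 1
      unfold sl
      split_ifs with h1
      · exact F.tw _ h1
      · rw [map_one, mul_one, one_mul]

theorem Fit.tw_wd (F : Fit cs h ψ t em J w) (n : ℕ) : w * ψ (wd cs em t.r n) = ws cs t em n * w := F.tw_wdF _ n

theorem Fit.step_simple (F : Fit cs h ψ t em J w) (ht : t.ok = true) {a : ℕ} (ha : a < t.r) {u : W}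
    (hu : u ∈ WJ cs J) : step t.tab a (cd cs h t em u) = cd cs h t em (cs.simple (em a) * u) := by
  rw [F.step_cd ht (Ty.ok_iff ht).1 (Ty.ok_iff ht).2.1 (lt_of_lt_of_le ha (Ty.ok_iff ht).1) hu, sl, if_pos ha]
  rfl

theorem Fit.runL_cd (F : Fit cs h ψ t em J w) (ht : t.ok = true) {l : List ℕ} (hl : ∀ a ∈ l, a < t.r) {u : W}
    (hu : u ∈ WJ cs J) : runL t.tab l (cd cs h t em u) = cd cs h t em (cs.wordProd (l.map em) * u) := by
  induction l with
  | nil => exact congrArg (cd cs h t em) (by simp)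
  | cons a l ih =>
    have h1 : ∀ b ∈ l, b < t.r := fun b hb => hl b (List.mem_cons_of_mem _ hb)
    have h2 := hl a List.mem_cons_self
    have h3 : cs.wordProd (l.map em) ∈ WJ cs J := wordProd_mem_WJ cs fun i hi => by
      obtain ⟨b, hb, rfl⟩ := List.mem_map.1 hi
      exact F.em_mem (h1 b hb)
    show step t.tab a (runL t.tab l _) = _
    rw [ih h1, F.step_simple ht h2 (mul_mem h3 hu), List.map_cons, cs.wordProd_cons, mul_assoc]

/-- a checked twisted conjugation: `a * σ(g) = g * b` -/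
theorem Fit.conj (F : Fit cs h ψ t em J w) {y : W → ℂ} (hy : Inv cs ψ J y) {a b : W} {g : ℕ}
    (e : a * ws cs t em g = wd cs em t.r g * b) : y (a * w) = y (b * w) := by
  have h1 := hy _ (F.wd_mem g) ((wd cs em t.r g)⁻¹ * (a * w))
  rw [mul_inv_cancel_left] at h1
  rw [h1, mul_assoc, mul_assoc, F.tw_wd, ← mul_assoc a, e, mul_assoc, inv_mul_cancel_left]

end Cfsg.Agent.LV.W
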